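import Cfsg.Agent.Nodes.TypeC
import Cfsg.Agent.Nodes.StabComb

/-!
# S4842: signed permutations and words, type `C_n` (helper200)

* `ws ω x` : the image of the signed index `x` under the word `ω`;
* `exists_word` : every element of `W_J` is given by a word of a list which is closed under left multiplication;
* `img_of_rep` : `w α_j = α_k` in terms of signed indices.
-/

set_option autoImplicit false

namespace Cfsg.Agent.H200.VZ

open CoxeterSystem Cfsg.Agent.ChevalleyStructure.CoxeterGeom Cfsg.Agent.Tits.Roots Cfsg.Agent.Tits.Core Cfsg.Agent.Nodes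
  Cfsg.Agent.Nodes.TypeC Cfsg.Agent.Nodes.StabComb Cfsg.Agent.Tits.Exchange

variable {n : ℕ}

/-- the image of a signed index under a word -/
def ws (ω : List (Fin n)) (x : Fin n × Bool) : Fin n × Bool := ω.foldr sg x

theorem ws_nil (x : Fin n × Bool) : ws [] x = x := rfl

theorem ws_cons (i : Fin n) (ω : List (Fin n)) (x : Fin n × Bool) : ws (i :: ω) x = sg i (ws ω x) := rfl

theorem ws_ng (ω : List (Fin n)) (x : Fin n × Bool) : ws ω (ng x) = ng (ws ω x) := by
  induction ω with
  | nil => rfl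
  | cons i ω ih => rw [ws_cons, ws_cons, ih, sg_ng]

theorem ws_fst (ω : List (Fin n)) {x y : Fin n × Bool} : (ws ω x).1 = (ws ω y).1 ↔ x.1 = y.1 := by
  induction ω with
  | nil => rfl
  | cons i ω ih => rw [ws_cons, ws_cons, sg_fst_eq, ih]

theorem ws_ok (ω : List (Fin n)) {x y : Fin n × Bool} (h : Ok x y) : Ok (ws ω x) (ws ω y) := by
  induction ω with
  | nil => exact h
  | cons i ω ih => exact ih.sg i

variable {W : Type*} [Group W] {cs : CoxeterSystem (CoxeterMatrix.B n) W}

theorem ee_word (ω : List (Fin n)) {x : Fin n → ℤ} {a b : Fin n × Bool} (e : ee x = wt a + wt b) :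
    ee (rep cs (isCartan n) (cs.wordProd ω) x) = wt (ws ω a) + wt (ws ω b) := by
  induction ω with
  | nil => rw [wordProd_nil, map_one, Module.End.one_apply]; exact e
  | cons i ω ih => rw [wordProd_cons, rep_mul_apply, rep_simple, ee_refl_of ih]; rfl

theorem ws_all {ω ω' : List (Fin n)} (h : ∀ k, ws ω (k, true) = ws ω' (k, true)) (x : Fin n × Bool) :
    ws ω x = ws ω' x := by
  obtain ⟨k, s⟩ := x
  cases s
  · have : ((k, false) : Fin n × Bool) = ng (k, true) := rfl
    rw [this, ws_ng, ws_ng, h]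
  · exact h k

theorem word_eq {ω ω' : List (Fin n)} (h : ∀ k, ws ω (k, true) = ws ω' (k, true)) :
    cs.wordProd ω = cs.wordProd ω' := by
  apply rep_injective cs (isCartan n)
  refine LinearMap.ext fun x => ?_
  have h1 : ∀ i, rep cs (isCartan n) (cs.wordProd ω) (sr i) = rep cs (isCartan n) (cs.wordProd ω') (sr i) := by
    intro i
    apply ee_injective
    rw [ee_word ω (ee_sr i), ee_word ω' (ee_sr i), ws_all h, ws_all h]
  have h2 : x = ∑ k, x k • sr k := by
    funext k
    simp [sr, Finset.sum_apply, Pi.single_apply]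
  rw [h2, map_sum, map_sum]
  exact Finset.sum_congr rfl fun k _ => by rw [map_smul, map_smul, h1]

/-- a list of words closed under left multiplication -/
def Closed (L : List (List (Fin n))) (JL : List (Fin n)) : Prop :=
  [] ∈ L ∧ ∀ ω ∈ L, ∀ i ∈ JL, ∃ ω' ∈ L, ∀ k, ws (i :: ω) (k, true) = ws ω' (k, true)

instance (L : List (List (Fin n))) (JL : List (Fin n)) : Decidable (Closed L JL) := by
  unfold Closed; infer_instance

theorem exists_word {L : List (List (Fin n))} {JL : List (Fin n)} (hL : Closed L JL) {w : W}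
    (hw : w ∈ WJ cs {j | j ∈ JL}) : ∃ ω ∈ L, cs.wordProd ω = w := by
  obtain ⟨υ, hυ, rfl⟩ := exists_word_of_mem_WJ cs hw
  clear hw
  induction υ with
  | nil => exact ⟨[], hL.1, rfl⟩
  | cons i υ ih =>
    obtain ⟨ω, hω, e⟩ := ih fun j hj => hυ j (by simp [hj])
    obtain ⟨ω', hω', e'⟩ := hL.2 ω hω i (hυ i (by simp))
    exact ⟨ω', hω', by rw [← word_eq e', wordProd_cons, e, wordProd_cons]⟩

/-- the word maps the simple root `j` to the simple root `k` -/
def Img (ω : List (Fin n)) (j k : Fin n) : Prop :=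
  (ws ω (j, true) = (k, true) ∧ ws ω (nx j) = nx k) ∨ (ws ω (j, true) = nx k ∧ ws ω (nx j) = (k, true))

instance (ω : List (Fin n)) (j k : Fin n) : Decidable (Img ω j k) := by unfold Img; infer_instance

theorem img_of_rep {ω : List (Fin n)} {j k : Fin n}
    (e : rep cs (isCartan n) (cs.wordProd ω) (sr j) = sr k) : Img ω j k := by
  have h1 := ee_word (cs := cs) ω (ee_sr j)
  rw [e, ee_sr] at h1
  exact (wt_add_eq (ws_ok ω (ok_nx j)) (ok_nx k) h1.symm)

/-- long simple roots go to long simple roots -/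
theorem Img.last {ω : List (Fin n)} {j k : Fin n} (h : Img ω j k) : ((j : ℕ) + 1 = n) ↔ ((k : ℕ) + 1 = n) := by
  have hj := j.2
  have hk := k.2
  have h0 : ∀ i : Fin n, (nx i).1 = (i, true).1 ↔ (i : ℕ) + 1 = n := by
    intro i
    have := i.2
    unfold nx
    split_ifs with h1
    · simp only [Fin.ext_iff]; omega
    · simp only [true_iff]; omega
  rw [← h0, ← h0, ← ws_fst ω]
  rcases h with ⟨h1, h2⟩ | ⟨h1, h2⟩
  · rw [h1, h2]
  · rw [h1, h2]
    exact eq_comm

theorem mem_WJ_word {K : Set (Fin n)} {ω : List (Fin n)} (h : ∀ i ∈ ω, i ∈ K) : cs.wordProd ω ∈ WJ cs K := by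
  induction ω with
  | nil => rw [wordProd_nil]; exact one_mem _
  | cons i ω ih =>
    rw [wordProd_cons]
    exact mul_mem (simple_mem_WJ cs (h i (by simp))) (ih fun j hj => h j (by simp [hj]))

/-- the words for `S₃`, `S₄` and the Levi subgroups `A_{n-2} × A₁` -/
def L3J : List (List (Fin 3)) := [[], [0], [1], [1, 0], [0, 1], [0, 1, 0]]
def L3K : List (List (Fin 3)) := [[], [0], [2], [2, 0]]
def L4J : List (List (Fin 4)) := [[], [0], [1], [2], [1, 0], [2, 0], [0, 1], [2, 1], [1, 2], [0, 1, 0], [2, 1, 0], [1, 2, 0],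
  [2, 0, 1], [1, 2, 1], [0, 1, 2], [2, 0, 1, 0], [1, 2, 1, 0], [0, 1, 2, 0], [1, 2, 0, 1], [0, 1, 2, 1], [1, 2, 0, 1, 0],
  [0, 1, 2, 1, 0], [0, 1, 2, 0, 1], [0, 1, 2, 0, 1, 0]]
def L4K : List (List (Fin 4)) := [[], [0], [1], [3], [1, 0], [3, 0], [0, 1], [3, 1], [0, 1, 0], [3, 1, 0], [3, 0, 1], [3, 0, 1, 0]]

theorem closed_3J : Closed L3J [0, 1] := by decide
theorem closed_3K : Closed L3K [0, 2] := by decide
set_option maxRecDepth 20000 in
theorem closed_4J : Closed L4J [0, 1, 2] := by decide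
set_option maxRecDepth 20000 in
theorem closed_4K : Closed L4K [0, 1, 3] := by decide

/-- possible supports -/
def SuppOK (L : List (List (Fin n))) (JL : List (Fin n)) (b : Fin n → Bool) : Prop :=
  (∀ j, b j = true → j ∈ JL) ∧ ∃ ω ∈ L, (∀ j, b j = true → ∃ k, b k = true ∧ Img ω j k) ∧ ∀ j ∈ JL, b j = true ∨ j ∈ ω

instance (L : List (List (Fin n))) (JL : List (Fin n)) (b : Fin n → Bool) : Decidable (SuppOK L JL b) := by
  unfold SuppOK; infer_instance

set_option maxRecDepth 20000 in
theorem supp_3J : ∀ b : Fin 3 → Bool, SuppOK L3J [0, 1] b → b = (fun _ => false) ∨ b = ![true, true, false] := by decide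

set_option maxRecDepth 20000 in
theorem supp_3K : ∀ b : Fin 3 → Bool, SuppOK L3K [0, 2] b → b 1 = false := by decide

set_option maxRecDepth 20000 in
theorem supp_4J : ∀ b : Fin 4 → Bool, SuppOK L4J [0, 1, 2] b → b = (fun _ => false) ∨ b = ![false, true, false, false] ∨
    b = ![true, false, true, false] ∨ b = ![true, true, true, false] := by decide

set_option maxRecDepth 20000 in
theorem supp_4K : ∀ b : Fin 4 → Bool, SuppOK L4K [0, 1, 3] b → b 2 = false ∧ (b 3 = false → b = (fun _ => false) ∨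
    b = ![true, true, false, false]) := by decide

end Cfsg.Agent.H200.VZ
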