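import Cfsg.Agent.H200.VZ.SuppE
import Cfsg.Agent.H200.VZ.WComb

/-!
# S4842: `V^U ≠ 0` for `B_n`, `C_n`, `n = 3, 4` (helper200)

`VU_ne_three`, `VU_ne_four` : an elliptic element `t` of `A_{n-1}` and one, `t'`, of `A_{n-2} × A₁` with
`χ(t) ≠ 0 ≠ χ(t')` force `V^U ≠ 0`.
-/

set_option autoImplicit false
set_option linter.unusedSectionVars false

open Cfsg

namespace Cfsg.Agent.H200.VZ

open CoxeterSystem Cfsg.Agent.ChevalleyStructure.CoxeterGeom Cfsg.Agent.Tits.Roots Cfsg.Agent.Tits.Core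
  Cfsg.Agent.Tits.Exchange Cfsg.Agent.Nodes.Reps Cfsg.Agent.Nodes.BNOf Cfsg.Agent.Nodes.StabComb
  Cfsg.Agent.Nodes.Bruhat Cfsg.Agent.Nodes.OppDec Cfsg.Agent.Nodes.LeviDec Cfsg.Agent.H985.VZ Module
  Cfsg.Agent.H631.VZ Cfsg.Agent.Nodes.TypeC

universe u v

variable {W : Type*} {Y : Type u} [Group W] [Group Y] {m : ℕ} {cs : CoxeterSystem (CoxeterMatrix.B m) W} {p : ℕ}
  {T : Subgroup Y} {n : Fin m → Y} {X : (Fin m → ℤ) → Subgroup Y} {V : Type v} [AddCommGroup V] [Module ℂ V]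
  {ρ : Representation ℂ Y V}

theorem suppOK_of {L : List (List (Fin m))} {JL : List (Fin m)} (hL : Closed L JL) (hlet : ∀ ω ∈ L, ∀ i ∈ ω, i ∈ JL)
    {J S : Set (Fin m)} (hJ : J = {j | j ∈ JL}) (hSJ : S ⊆ J) {w : W} (hw : w ∈ WJ cs J)
    (h1 : ∀ j ∈ S, ∃ k ∈ S, rep cs (isCartan m) w (sr j) = sr k) (h2 : ∀ K : Set (Fin m), S ⊆ K → K ⊂ J → w ∉ WJ cs K)
    {b : Fin m → Bool} (hb : ∀ j, b j = true ↔ j ∈ S) : SuppOK L JL b := by
  subst hJ
  refine ⟨fun j hj => hSJ ((hb j).1 hj), ?_⟩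
  obtain ⟨ω, hω, rfl⟩ := exists_word hL hw
  refine ⟨ω, hω, fun j hj => ?_, fun j hj => ?_⟩
  · obtain ⟨k, hk, e⟩ := h1 j ((hb j).1 hj)
    exact ⟨k, (hb k).2 hk, img_of_rep e⟩
  · by_contra hcon
    push Not at hcon
    obtain ⟨hj1, hj2⟩ := hcon
    refine h2 (S ∪ {i | i ∈ ω}) Set.subset_union_left ⟨?_, ?_⟩ (mem_WJ_word fun i hi => Or.inr hi)
    · rintro i (hi | hi)
      · exact hSJ hi
      · exact hlet ω hω i hi
    · intro hle
      rcases hle (show j ∈ {j | j ∈ JL} from hj) with h3 | h3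
      · exact hj1 ((hb j).2 h3)
      · exact hj2 h3

theorem VU_of_empty (h0 : fx ρ (VJ cs (isCartan m) X ∅) ≠ ⊥) : VU cs (isCartan m) X ρ ≠ ⊥ := by
  rw [VJ_empty] at h0
  exact h0

/-- an injection between supports -/
theorem card_le_of_conj {S S' : Set (Fin m)} {w : W} (hw : ∀ k ∈ S, ∃ k' ∈ S', rep cs (isCartan m) w (sr k) = sr k') :
    ∃ f : Fin m → Fin m, (∀ k ∈ S, f k ∈ S' ∧ rep cs (isCartan m) w (sr k) = sr (f k)) ∧
      ∀ k ∈ S, ∀ k' ∈ S, f k = f k' → k = k' := by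
  classical
  choose! f hf using hw
  refine ⟨f, fun k hk => ⟨(hf k hk).1, (hf k hk).2⟩, fun k hk k' hk' e => ?_⟩
  have h1 : rep cs (isCartan m) w (sr k) = rep cs (isCartan m) w (sr k') := by
    rw [(hf k hk).2, (hf k' hk').2, e]
  have h2 : (sr k : Fin m → ℤ) = sr k' := by
    have := congrArg (rep cs (isCartan m) w⁻¹) h1
    rwa [rep_inv_apply, rep_inv_apply] at this
  by_contra hne
  have h3 := congrFun h2 k
  rw [sr_self, sr_ne (i := k') (j := k) hne] at h3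
  exact absurd h3 one_ne_zero

theorem last_of_conj {w : W} {k k' : Fin m} (e : rep cs (isCartan m) w (sr k) = sr k') :
    ((k : ℕ) + 1 = m) ↔ ((k' : ℕ) + 1 = m) := by
  obtain ⟨ω, rfl⟩ := cs.wordProd_surjective w
  exact (img_of_rep e).last

/-- the supports of two elliptic elements are conjugate -/
theorem exists_pair (R : RGD cs (isCartan m) p T n X) [Finite W] [Finite Y] [FiniteDimensional ℂ V]
    (hG : GG cs (isCartan m) T X = ⊤) (hρ : ρ.IsIrreducible) {J K : Set (Fin m)} {t t' : Y}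
    (ht : Ell cs (isCartan m) T X J t) (hχ : ρ.character t ≠ 0) (ht' : Ell cs (isCartan m) T X K t')
    (hχ' : ρ.character t' ≠ 0) : ∃ S S' : Set (Fin m), S ⊆ J ∧ S' ⊆ K ∧
      (∃ w ∈ WJ cs J, (∀ j ∈ S, ∃ k ∈ S, rep cs (isCartan m) w (sr j) = sr k) ∧
        ∀ K' : Set (Fin m), S ⊆ K' → K' ⊂ J → w ∉ WJ cs K') ∧
      (∃ w ∈ WJ cs K, (∀ j ∈ S', ∃ k ∈ S', rep cs (isCartan m) w (sr j) = sr k) ∧
        ∀ K' : Set (Fin m), S' ⊆ K' → K' ⊂ K → w ∉ WJ cs K') ∧
      (∃ w : W, ∀ k ∈ S, ∃ k' ∈ S', rep cs (isCartan m) w (sr k) = sr k') ∧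
      (∃ w : W, ∀ k ∈ S', ∃ k' ∈ S, rep cs (isCartan m) w (sr k) = sr k') ∧
      fx ρ (VJ cs (isCartan m) X S) ≠ ⊥ := by
  obtain ⟨M, S, hSJ, hM, hMle, hS0, hSmin, hw⟩ := exists_supp R ht hχ
  obtain ⟨M', S', hSJ', hM', hMle', hS0', hSmin', hw'⟩ := exists_supp R ht' hχ'
  have h1 : fx ρ (VJ cs (isCartan m) X S) ≠ ⊥ := fun h => hS0 (by rw [h, inf_bot_eq])
  have h2 : fx ρ (VJ cs (isCartan m) X S') ≠ ⊥ := fun h => hS0' (by rw [h, inf_bot_eq])
  exact ⟨S, S', hSJ, hSJ', hw, hw', supp_conj R hG hρ hSJ hM hMle hS0 hSmin h2,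
    supp_conj R hG hρ hSJ' hM' hMle' hS0' hSmin' h1, h1⟩

theorem VU_ne_three {cs : CoxeterSystem (CoxeterMatrix.B 3) W} {n : Fin 3 → Y} {X : (Fin 3 → ℤ) → Subgroup Y}
    (R : RGD cs (isCartan 3) p T n X) [Finite Y] [FiniteDimensional ℂ V]
    (hG : GG cs (isCartan 3) T X = ⊤) (hρ : ρ.IsIrreducible) {t t' : Y}
    (ht : Ell cs (isCartan 3) T X {2}ᶜ t) (hχ : ρ.character t ≠ 0) (ht' : Ell cs (isCartan 3) T X {1}ᶜ t')
    (hχ' : ρ.character t' ≠ 0) : VU cs (isCartan 3) X ρ ≠ ⊥ := by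
  classical
  have : Finite W := finite_W cs
  obtain ⟨S, S', hS, hS', ⟨w, hw, hw1, hw2⟩, ⟨w', hw', hw1', hw2'⟩, ⟨x, hx⟩, ⟨x', hx'⟩, h0⟩ :=
    exists_pair R hG hρ ht hχ ht' hχ'
  have e1 : ({2}ᶜ : Set (Fin 3)) = {j | j ∈ ([0, 1] : List (Fin 3))} := by ext j; fin_cases j <;> simp
  have h1 := supp_3J _ (suppOK_of closed_3J (by decide) e1 hS hw hw1 hw2 (b := fun j => decide (j ∈ S))
    fun j => decide_eq_true_iff)
  -- `S'` has no long root
  have hS'l : ∀ k ∈ S', (k : ℕ) + 1 ≠ 3 := by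
    intro k hk he
    obtain ⟨k', hk', e⟩ := hx' k hk
    have h2 := (last_of_conj e).1 he
    have h3 := hS hk'
    rw [Set.mem_compl_iff, Set.mem_singleton_iff] at h3
    exact h3 (Fin.ext (by change (k' : ℕ) = 2; omega))
  have hS'0 : ∀ k ∈ S', k = 0 := by
    intro k hk
    have h2 := hS'l k hk
    have h3 := hS' hk
    rw [Set.mem_compl_iff, Set.mem_singleton_iff] at h3
    fin_cases k
    · rfl
    · exact absurd rfl h3
    · exact absurd rfl h2
  rcases h1 with h1 | h1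
  · have hSe : S = ∅ := by
      ext j
      have := congrFun h1 j
      simpa using this
    rw [hSe] at h0
    exact VU_of_empty h0
  · exfalso
    obtain ⟨f, hf, hinj⟩ := card_le_of_conj hx
    have m0 : (0 : Fin 3) ∈ S := by simpa using congrFun h1 0
    have m1 : (1 : Fin 3) ∈ S := by simpa using congrFun h1 1
    have := hinj 0 m0 1 m1 ((hS'0 _ (hf 0 m0).1).trans (hS'0 _ (hf 1 m1).1).symm)
    exact absurd this (by decide)

theorem VU_ne_four {cs : CoxeterSystem (CoxeterMatrix.B 4) W} {n : Fin 4 → Y} {X : (Fin 4 → ℤ) → Subgroup Y}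
    (R : RGD cs (isCartan 4) p T n X) [Finite Y] [FiniteDimensional ℂ V]
    (hG : GG cs (isCartan 4) T X = ⊤) (hρ : ρ.IsIrreducible) {t t' : Y}
    (ht : Ell cs (isCartan 4) T X {3}ᶜ t) (hχ : ρ.character t ≠ 0) (ht' : Ell cs (isCartan 4) T X {2}ᶜ t')
    (hχ' : ρ.character t' ≠ 0) : VU cs (isCartan 4) X ρ ≠ ⊥ := by
  classical
  have : Finite W := finite_W cs
  obtain ⟨S, S', hS, hS', ⟨w, hw, hw1, hw2⟩, ⟨w', hw', hw1', hw2'⟩, ⟨x, hx⟩, ⟨x', hx'⟩, h0⟩ :=
    exists_pair R hG hρ ht hχ ht' hχ'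
  have e1 : ({3}ᶜ : Set (Fin 4)) = {j | j ∈ ([0, 1, 2] : List (Fin 4))} := by ext j; fin_cases j <;> simp
  have e2 : ({2}ᶜ : Set (Fin 4)) = {j | j ∈ ([0, 1, 3] : List (Fin 4))} := by ext j; fin_cases j <;> simp
  have h1 := supp_4J _ (suppOK_of closed_4J (by decide) e1 hS hw hw1 hw2 (b := fun j => decide (j ∈ S))
    fun j => decide_eq_true_iff)
  have h1' := supp_4K _ (suppOK_of closed_4K (by decide) e2 hS' hw' hw1' hw2' (b := fun j => decide (j ∈ S'))
    fun j => decide_eq_true_iff)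
  -- `S'` has no long root
  have hS'l : ∀ k ∈ S', (k : ℕ) + 1 ≠ 4 := by
    intro k hk he
    obtain ⟨k', hk', e⟩ := hx' k hk
    have h2 := (last_of_conj e).1 he
    have h3 := hS hk'
    rw [Set.mem_compl_iff, Set.mem_singleton_iff] at h3
    exact h3 (Fin.ext (by change (k' : ℕ) = 3; omega))
  have hS'01 : ∀ k ∈ S', k = 0 ∨ k = 1 := by
    intro k hk
    have h2 := hS'l k hk
    have h3 := hS' hk
    rw [Set.mem_compl_iff, Set.mem_singleton_iff] at h3
    fin_cases k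
    · exact Or.inl rfl
    · exact Or.inr rfl
    · exact absurd rfl h3
    · exact absurd rfl h2
  have h3S' : decide ((3 : Fin 4) ∈ S') = false := by
    rw [decide_eq_false_iff_not]
    exact fun h => hS'l 3 h rfl
  obtain ⟨f, hf, hinj⟩ := card_le_of_conj hx
  obtain ⟨f', hf', hinj'⟩ := card_le_of_conj hx'
  rcases h1 with h1 | h1 | h1 | h1
  · have hSe : S = ∅ := by
      ext j
      have := congrFun h1 j
      simpa using this
    rw [hSe] at h0
    exact VU_of_empty h0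
  · -- `S = {1}`
    exfalso
    have m1 : (1 : Fin 4) ∈ S := by simpa using congrFun h1 1
    rcases h1'.2 h3S' with h2 | h2
    · have : ∀ k, k ∉ S' := fun k => by simpa using congrFun h2 k
      exact this _ (hf 1 m1).1
    · have k0 : (0 : Fin 4) ∈ S' := by simpa using congrFun h2 0
      have k1 : (1 : Fin 4) ∈ S' := by simpa using congrFun h2 1
      have hS1 : ∀ k ∈ S, k = 1 := by
        intro k hk
        have := congrFun h1 k
        fin_cases k <;> simp_all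
      have := hinj' 0 k0 1 k1 ((hS1 _ (hf' 0 k0).1).trans (hS1 _ (hf' 1 k1).1).symm)
      exact absurd this (by decide)
  · -- `S = {0, 2}`, `S' ⊆ {0, 1}`
    exfalso
    have m0 : (0 : Fin 4) ∈ S := by simpa using congrFun h1 0
    have m2 : (2 : Fin 4) ∈ S := by simpa using congrFun h1 2
    have e0 := (hf 0 m0).2
    have e2 := (hf 2 m2).2
    have hne : f 0 ≠ f 2 := fun h => absurd (hinj 0 m0 2 m2 h) (by decide)
    obtain ⟨ω, rfl⟩ := cs.wordProd_surjective x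
    have i0 := img_of_rep e0
    have i2 := img_of_rep e2
    -- the index `1` occurs in both images
    have key : ∀ a b : Fin 4, (a = 0 ∨ a = 1) → (b = 0 ∨ b = 1) → a ≠ b → Img ω 0 a → Img ω 2 b → False := by
      intro a b ha hb hab ia ib
      have hd : ∀ y z : Fin 4 × Bool, (y = (0, true) ∨ y = nx 0) → (z = (2, true) ∨ z = nx 2) → (ws ω y).1 ≠ (ws ω z).1 := by
        intro y z hy hz he
        rw [ws_fst] at he
        rcases hy with rfl | rfl <;> rcases hz with rfl | rfl <;> exact absurd he (by decide)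
      have n0 : (nx (0 : Fin 4)).1 = 1 := by decide
      have n1 : (nx (1 : Fin 4)).1 = 2 := by decide
      rcases ha with rfl | rfl <;> rcases hb with rfl | rfl
      · exact hab rfl
      · rcases ia with ⟨a1, a2⟩ | ⟨a1, a2⟩ <;> rcases ib with ⟨b1, b2⟩ | ⟨b1, b2⟩
        · exact hd _ _ (Or.inr rfl) (Or.inl rfl) (by rw [a2, b1, n0])
        · exact hd _ _ (Or.inr rfl) (Or.inr rfl) (by rw [a2, b2, n0])
        · exact hd _ _ (Or.inl rfl) (Or.inl rfl) (by rw [a1, b1, n0])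
        · exact hd _ _ (Or.inl rfl) (Or.inr rfl) (by rw [a1, b2, n0])
      · rcases ia with ⟨a1, a2⟩ | ⟨a1, a2⟩ <;> rcases ib with ⟨b1, b2⟩ | ⟨b1, b2⟩
        · exact hd _ _ (Or.inl rfl) (Or.inr rfl) (by rw [a1, b2, n0])
        · exact hd _ _ (Or.inl rfl) (Or.inl rfl) (by rw [a1, b1, n0])
        · exact hd _ _ (Or.inr rfl) (Or.inr rfl) (by rw [a2, b2, n0])
        · exact hd _ _ (Or.inr rfl) (Or.inl rfl) (by rw [a2, b1, n0])
      · exact hab rfl
    exact key _ _ (hS'01 _ (hf 0 m0).1) (hS'01 _ (hf 2 m2).1) hne i0 i2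
  · -- `S = {0, 1, 2}`
    exfalso
    have m0 : (0 : Fin 4) ∈ S := by simpa using congrFun h1 0
    have m1 : (1 : Fin 4) ∈ S := by simpa using congrFun h1 1
    have m2 : (2 : Fin 4) ∈ S := by simpa using congrFun h1 2
    rcases hS'01 _ (hf 0 m0).1 with c0 | c0 <;> rcases hS'01 _ (hf 1 m1).1 with c1 | c1 <;>
      rcases hS'01 _ (hf 2 m2).1 with c2 | c2
    · exact absurd (hinj 0 m0 1 m1 (c0.trans c1.symm)) (by decide)
    · exact absurd (hinj 0 m0 1 m1 (c0.trans c1.symm)) (by decide)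
    · exact absurd (hinj 0 m0 2 m2 (c0.trans c2.symm)) (by decide)
    · exact absurd (hinj 1 m1 2 m2 (c1.trans c2.symm)) (by decide)
    · exact absurd (hinj 1 m1 2 m2 (c1.trans c2.symm)) (by decide)
    · exact absurd (hinj 0 m0 2 m2 (c0.trans c2.symm)) (by decide)
    · exact absurd (hinj 0 m0 1 m1 (c0.trans c1.symm)) (by decide)
    · exact absurd (hinj 0 m0 1 m1 (c0.trans c1.symm)) (by decide)

end Cfsg.Agent.H200.VZ
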