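import Cfsg.Agent.H200.VZ.Dat
import Cfsg.Agent.H200.VZ.VUne
import Cfsg.Agent.H650.OZ.TChar

/-!
# S4842: `V^B ≠ 0` for `B_n`, `C_n`, `n = 3, 4` (helper200)

* `ex A' j ω v` : the exponent of the letter `j` of the word `ω` at the vector `v` of coordinates;
* `cc td l` : the coordinates `l ∘ hh j` of the `T`-character `l`;
* `QQ` : the conditions on the coordinates given by an elliptic element and the fundamental coweights;
* `VB_ne_three`, `VB_ne_four`.
-/

set_option autoImplicit false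
set_option linter.unusedSectionVars false

open Cfsg

namespace Cfsg.Agent.H200.VZ

open CoxeterSystem Cfsg.Agent.ChevalleyStructure.CoxeterGeom Cfsg.Agent.Tits.Roots Cfsg.Agent.Tits.Core
  Cfsg.Agent.Tits.Exchange Cfsg.Agent.Nodes.Reps Cfsg.Agent.Nodes.BNOf Cfsg.Agent.Nodes.StabComb
  Cfsg.Agent.Nodes.Bruhat Cfsg.Agent.Nodes.OppDec Cfsg.Agent.Nodes.LeviDec Cfsg.Agent.H985.VZ
  Cfsg.Agent.Nodes.TypeC
open Cfsg.Agent.H650.OZ (act actw actw_smul act_smul Vl_one)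

/-! ### exponents -/

section Ex

variable {I : Type*} [DecidableEq I] {G : Type*} [AddCommGroup G]

/-- the exponent of the letter `j` -/
def ex (A' : I → I → ℤ) (j : I) : List I → (I → G) → G
  | [], _ => 0
  | i :: ω, v => (if i = j then actw A' ω v j else 0) + ex A' j ω v

/-- the unit vectors -/
def dl (k i : I) : ℤ := if i = k then 1 else 0

variable {A' : I → I → ℤ}

theorem actw_lin [Fintype I] (ω : List I) (v : I → G) (j : I) :
    actw A' ω v j = ∑ k, actw A' ω (dl k) j • v k := by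
  induction ω generalizing j with
  | nil =>
    change v j = ∑ k, dl k j • v k
    rw [Finset.sum_eq_single j]
    · rw [dl, if_pos rfl, one_smul]
    · intro b _ hb
      rw [dl, if_neg (Ne.symm hb), zero_smul]
    · simp
  | cons i ω ih =>
    change actw A' ω v j - A' j i • actw A' ω v i = ∑ k, (actw A' ω (dl k) j - A' j i • actw A' ω (dl k) i) • v k
    rw [ih j, ih i, Finset.smul_sum, ← Finset.sum_sub_distrib]
    exact Finset.sum_congr rfl fun k _ => by rw [sub_smul, smul_eq_mul, mul_smul]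

theorem ex_lin [Fintype I] (ω : List I) (v : I → G) (j : I) : ex A' j ω v = ∑ k, ex A' j ω (dl k) • v k := by
  induction ω with
  | nil => simp [ex]
  | cons i ω ih =>
    simp only [ex, add_smul, Finset.sum_add_distrib]
    rw [← ih]
    congr 1
    split_ifs with h
    · exact actw_lin ω v j
    · simp

theorem ex_smul (ω : List I) (μ : I → ℤ) (c : G) (j : I) : ex A' j ω (fun i => μ i • c) = ex A' j ω μ • c := by
  induction ω with
  | nil => simp [ex]
  | cons i ω ih =>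
    simp only [ex, add_smul]
    rw [ih, actw_smul]
    congr 1
    split_ifs with h
    · rfl
    · rw [zero_smul]

/-- the conditions from an elliptic element -/
def QQ (A' : I → I → ℤ) (L : List (List I)) (JL : List I) (v : I → G) : Prop :=
  ∀ υ : List I, (∀ i ∈ υ, i ∈ JL) → ∀ i0 ∈ JL, ∃ ω ∈ L, i0 ∈ ω ∧ ∀ j, ex A' j ω (actw A' υ v) = 0

/-- a certificate -/
def cert (A' : I → I → ℤ) (L : List (List I)) (JL : List I) (t : (I → ℤ) × List I × I) (js : List I) : Bool :=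
  (t.2.1.all fun i => decide (i ∈ JL)) && decide (t.2.2 ∈ JL) &&
    L.all fun ω => !decide (t.2.2 ∈ ω) || js.any fun j => (ex A' j ω (actw A' t.2.1 t.1)).natAbs == 1

theorem QQ.eq_zero {L : List (List I)} {JL js : List I} {t : (I → ℤ) × List I × I} (hc : cert A' L JL t js = true)
    {c : G} (hQ : QQ A' L JL fun i => t.1 i • c) : c = 0 := by
  unfold cert at hc
  rw [Bool.and_eq_true, Bool.and_eq_true] at hc
  obtain ⟨⟨h1, h2⟩, h3⟩ := hc
  rw [List.all_eq_true] at h1 h3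
  obtain ⟨ω, hω, h4, h5⟩ := hQ t.2.1 (fun i hi => of_decide_eq_true (h1 i hi)) t.2.2 (of_decide_eq_true h2)
  have h6 := h3 ω hω
  rw [Bool.or_eq_true, Bool.not_eq_true', decide_eq_false_iff_not, List.any_eq_true] at h6
  rcases h6 with h6 | ⟨j, -, hj⟩
  · exact absurd h4 h6
  rw [beq_iff_eq, Int.natAbs_eq_iff] at hj
  have h7 := h5 j
  rw [actw_smul, ex_smul] at h7
  rcases hj with hj | hj
  · rwa [hj, Nat.cast_one, one_smul] at h7
  · rw [hj, Nat.cast_one, neg_smul, one_smul, neg_eq_zero] at h7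
    exact h7

/-- the orbit of a multiple of a unit vector -/
theorem alg_orb {L : List (List I)} {JL js : List I} {v v' : I → G} {ω : List I} (hv : v = actw A' ω v') {k0 : I}
    (hK : ∀ k, k ≠ k0 → v' k = 0)
    (O : List ((I → ℤ) × List I × I)) (hO0 : ∃ t ∈ O, ∀ i, t.1 i = dl k0 i)
    (hO : ∀ t ∈ O, ∀ j, ∃ t' ∈ O, ∀ i, act A' j t.1 i = t'.1 i) (hO1 : ∀ t ∈ O, cert A' L JL t js = true)
    (hQ : QQ A' L JL v) : v' = 0 := by
  have h2 : v' = fun i => dl k0 i • v' k0 := by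
    funext i
    by_cases hi : i = k0
    · rw [dl, if_pos hi, one_smul, hi]
    · rw [dl, if_neg hi, zero_smul, hK i hi]
  have h3 : ∀ ω : List I, ∃ t ∈ O, ∀ i, actw A' ω (dl k0) i = t.1 i := by
    intro ω
    induction ω with
    | nil =>
      obtain ⟨t, ht, e⟩ := hO0
      exact ⟨t, ht, fun i => (e i).symm⟩
    | cons j ω ih =>
      obtain ⟨t, ht, e⟩ := ih
      obtain ⟨t', ht', e'⟩ := hO t ht j
      refine ⟨t', ht', fun i => ?_⟩
      rw [actw, ← e' i, funext e]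
  obtain ⟨t0, ht0, e0⟩ := h3 ω
  have h4 : v = fun i => t0.1 i • v' k0 := by
    rw [hv, h2, actw_smul, funext e0]
    funext i
    beta_reduce
    rw [show dl k0 k0 = 1 from if_pos rfl, one_smul]
  have h5 : v' k0 = 0 := by
    rw [h4] at hQ
    exact hQ.eq_zero (hO1 t0 ht0)
  rw [h2, h5]
  funext i
  exact smul_zero _

end Ex

/-! ### coordinates -/

section Co

universe u

variable {I W : Type*} {Y : Type u} [Fintype I] [DecidableEq I] [Group W] [Group Y] {M : CoxeterMatrix I}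
  {cs : CoxeterSystem M W} {A A' : I → I → ℤ} {h : IsCartan M A} {T : Subgroup Y} {n : I → Y}
  {X : (I → ℤ) → Subgroup Y} {hN : NSys M T n} {X0 : Type*} [Group X0] {hh : I → X0 →* Y} (td : TD T n A' hh)

/-- the coordinates of a character of `T` -/
def cc (l : T →* ℂˣ) (j : I) : Additive (X0 →* ℂˣ) := Additive.ofMul (l.comp ((hh j).codRestrict T (td.mem j)))

theorem cc_apply (l : T →* ℂˣ) (j : I) (x : X0) : (cc td l j).toMul x = l ⟨hh j x, td.mem j x⟩ := rfl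

theorem cc_mv {i : I} {l l' : T →* ℂˣ} (hm : Mv cs hN (cs.simple i) l l') : cc td l' = act A' i (cc td l) := by
  funext j
  apply Additive.toMul.injective
  refine MonoidHom.ext fun x => ?_
  have h1 : l' ⟨hh j x, td.mem j x⟩ = l (⟨hh j x, td.mem j x⟩ * ⟨hh i x, td.mem i x⟩ ^ (-A' j i)) := by
    refine hm (n i) (rp_simple cs hN i) _ _ ?_
    have h2 := td.conj i j x
    change hh j x = n i * (hh j x * (hh i x) ^ (-A' j i)) * (n i)⁻¹
    rw [← h2]
    group
  change l' ⟨hh j x, td.mem j x⟩ = ((l.comp ((hh j).codRestrict T (td.mem j))) /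
    (l.comp ((hh i).codRestrict T (td.mem i))) ^ (A' j i)) x
  rw [MonoidHom.div_apply, h1, map_mul, map_zpow, div_eq_mul_inv]
  congr 1
  have h4 : ((l.comp ((hh i).codRestrict T (td.mem i))) ^ (A' j i)) x = l ⟨hh i x, td.mem i x⟩ ^ (A' j i) :=
    map_zpow (MonoidHom.eval x : (X0 →* ℂˣ) →* ℂˣ) (l.comp ((hh i).codRestrict T (td.mem i))) (A' j i)
  rw [h4, zpow_neg]

theorem cc_word (ω : List I) {l : T →* ℂˣ} : ∀ {l' : T →* ℂˣ}, Mv cs hN (cs.wordProd ω) l l' →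
    cc td l' = actw A' ω (cc td l) := by
  induction ω with
  | nil =>
    intro l' hm
    rw [wordProd_nil] at hm
    rw [actw, hm.unique (mv_one l)]
  | cons i ω ih =>
    intro l' hm
    obtain ⟨l'', hl''⟩ := exists_mv_to (cs := cs) (hN := hN) (cs.wordProd ω) l
    obtain ⟨l3, hl3⟩ := exists_mv_to (cs := cs) (hN := hN) (cs.simple i) l''
    rw [wordProd_cons] at hm
    rw [hm.unique (hl''.mul hl3), cc_mv td hl3, actw, ih hl'']

theorem eq_one_of_cc {l : T →* ℂˣ} (hl : cc td l = 0) : l = 1 := by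
  have h1 : Subgroup.closure {y | ∃ j x, y = hh j x} ≤ l.ker.map T.subtype := by
    rw [Subgroup.closure_le]
    rintro _ ⟨j, x, rfl⟩
    refine ⟨⟨hh j x, td.mem j x⟩, ?_, rfl⟩
    change l _ = 1
    rw [← cc_apply td l j x, hl]
    rfl
  refine MonoidHom.ext fun t => ?_
  obtain ⟨t', ht', e⟩ := h1 (td.gen t.2)
  have e' : t' = t := Subtype.ext e
  rw [← e']
  exact ht'

variable (cs) in
/-- the value of `l` at `g⁻¹ d(g)` -/
theorem ex_val {d : Y ≃* Y} (D : Dia cs h T n X d) {j : I} {x : X0} (h1 : (n j)⁻¹ * d (n j) = hh j x)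
    (h2 : ∀ i, i ≠ j → d (n i) = n i) (hN : NSys M T n) (ω : List I) (l : T →* ℂˣ) :
    ∃ g, Rp cs hN (cs.wordProd ω) g ∧ ∀ s : T, (s : Y) = g⁻¹ * d g → l s = (ex A' j ω (cc td l)).toMul x := by
  induction ω with
  | nil =>
    refine ⟨1, by rw [wordProd_nil]; exact rp_one, fun s hs => ?_⟩
    have hs1 : s = 1 := Subtype.ext (by rw [hs, map_one]; simp)
    rw [hs1, map_one]
    rfl
  | cons i ω ih =>
    obtain ⟨g, hg, ih⟩ := ih
    refine ⟨n i * g, by rw [wordProd_cons]; exact (rp_simple cs hN i).mul hg, fun s hs => ?_⟩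
    have m1 : g⁻¹ * d g ∈ T := D.rp hg
    have m2 : (n i)⁻¹ * d (n i) ∈ T := D.nn i
    have m3 : g⁻¹ * ((n i)⁻¹ * d (n i)) * g ∈ T := by
      have := (Subgroup.mem_normalizer_iff.1 hg.inv.mem_normalizer ((n i)⁻¹ * d (n i))).1 m2
      rwa [inv_inv] at this
    have e1 : s = ⟨_, m3⟩ * ⟨_, m1⟩ := by
      apply Subtype.ext
      change (s : Y) = g⁻¹ * ((n i)⁻¹ * d (n i)) * g * (g⁻¹ * d g)
      rw [hs, map_mul]
      group
    obtain ⟨l', hl'⟩ := exists_mv_to (cs := cs) (hN := hN) (cs.wordProd ω) l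
    have e2 : l ⟨_, m3⟩ = l' ⟨_, m2⟩ := by
      refine (hl' g hg ⟨_, m2⟩ ⟨_, m3⟩ ?_).symm
      change (n i)⁻¹ * d (n i) = g * (g⁻¹ * ((n i)⁻¹ * d (n i)) * g) * g⁻¹
      group
    rw [e1, map_mul, ih ⟨_, m1⟩ rfl, e2]
    simp only [ex]
    split_ifs with hij
    · subst hij
      rw [← cc_word td ω hl', toMul_add, MonoidHom.mul_apply, cc_apply]
      congr 2
      exact Subtype.ext h1
    · have e3 : (⟨_, m2⟩ : T) = 1 := Subtype.ext (by
        change (n i)⁻¹ * d (n i) = 1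
        rw [h2 i hij, inv_mul_cancel])
      rw [e3, map_one, one_mul, zero_add]

end Co

/-! ### the conditions -/

section Rho

universe u v

variable {W : Type*} {Y : Type u} [Group W] [Group Y] {m : ℕ} {cs : CoxeterSystem (CoxeterMatrix.B m) W} {p : ℕ}
  {T : Subgroup Y} {n : Fin m → Y} {X : (Fin m → ℤ) → Subgroup Y} {V : Type v} [AddCommGroup V] [Module ℂ V]
  {ρ : Representation ℂ Y V} {A' : Fin m → Fin m → ℤ} {X0 : Type*} [Group X0] {hh : Fin m → X0 →* Y}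

/-- the coordinates of a `T`-character seen by an elliptic element -/
theorem exists_cc (R : RGD cs (isCartan m) p T n X) [Finite W] [Finite Y] [FiniteDimensional ℂ V]
    (hG : GG cs (isCartan m) T X = ⊤) (hT : ∀ s ∈ T, ∀ t ∈ T, s * t = t * s) (hρ : ρ.IsIrreducible)
    (h0 : VU cs (isCartan m) X ρ ≠ ⊥) {L : List (List (Fin m))} {JL : List (Fin m)} (hL : Closed L JL)
    (hlet : ∀ ω ∈ L, ∀ i ∈ ω, i ∈ JL) {J : Set (Fin m)} (hJ : J = {j | j ∈ JL}) {t : Y}
    (ht : Ell cs (isCartan m) T X J t) (hχ : ρ.character t ≠ 0) (td : TD T n A' hh)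
    (hd : HD cs (isCartan m) T n X hh J t) : ∃ l : T →* ℂˣ, Vl cs (isCartan m) T X ρ l ≠ ⊥ ∧ QQ A' L JL (cc td l) := by
  subst hJ
  obtain ⟨l, hl, hl2⟩ := exists_fix_D R hG hT hρ h0 ht hχ
    (D := {d | Dia cs (isCartan m) T n X d ∧ ∃ a ∈ LJ cs (isCartan m) T X {j | j ∈ JL}, d t = a * t * a⁻¹})
    fun d hd => hd
  refine ⟨l, hl, fun υ hυ i0 hi0 => ?_⟩
  obtain ⟨l', hl'⟩ := exists_mv_to (cs := cs) (hN := R.nsys) (cs.wordProd υ) l
  obtain ⟨w, hw, hwK, hfix, hw2⟩ := hl2 (cs.wordProd υ) (mem_WJ_word hυ) l' hl' ({j | j ∈ JL} \ {i0})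
    ⟨Set.sdiff_subset, fun hle => (hle (show i0 ∈ {j | j ∈ JL} from hi0)).2 rfl⟩
  obtain ⟨ω, hω, rfl⟩ := exists_word hL hw
  refine ⟨ω, hω, ?_, fun j => ?_⟩
  · by_contra hcon
    refine hwK (mem_WJ_word fun i hi => ⟨hlet ω hω i hi, fun he => ?_⟩)
    rw [Set.mem_singleton_iff] at he
    exact hcon (he ▸ hi)
  · rw [← cc_word td υ hl']
    apply Additive.toMul.injective
    refine MonoidHom.ext fun x => ?_
    obtain ⟨d, D, h1, h2, a, ha, e⟩ := hd j x
    obtain ⟨g, hg, h3⟩ := ex_val cs td D h1 h2 R.nsys ω l'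
    have h4 : g⁻¹ * d g ∈ T := D.rp hg
    rw [← h3 ⟨_, h4⟩ rfl, hw2 d ⟨D, a, ha, e⟩ g hg ⟨_, h4⟩ rfl]
    rfl

/-- the combination -/
theorem VB_ne_of (R : RGD cs (isCartan m) p T n X) [Finite W] [Finite Y] [FiniteDimensional ℂ V]
    (hG : GG cs (isCartan m) T X = ⊤) (hT : ∀ s ∈ T, ∀ t ∈ T, s * t = t * s) (hρ : ρ.IsIrreducible)
    (h0 : VU cs (isCartan m) X ρ ≠ ⊥) {L : List (List (Fin m))} {JL : List (Fin m)} (hL : Closed L JL)
    (hlet : ∀ ω ∈ L, ∀ i ∈ ω, i ∈ JL) {J : Set (Fin m)} (hJ : J = {j | j ∈ JL}) {t : Y}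
    (ht : Ell cs (isCartan m) T X J t) (hχ : ρ.character t ≠ 0) (hd : HD cs (isCartan m) T n X hh J t)
    {L' : List (List (Fin m))} {JL' : List (Fin m)} (hL' : Closed L' JL')
    (hlet' : ∀ ω ∈ L', ∀ i ∈ ω, i ∈ JL') {J' : Set (Fin m)} (hJ' : J' = {j | j ∈ JL'}) {t' : Y}
    (ht' : Ell cs (isCartan m) T X J' t') (hχ' : ρ.character t' ≠ 0) (hd' : HD cs (isCartan m) T n X hh J' t')
    (td : TD T n A' hh) {k0 : Fin m}
    (hK : ∀ v : Fin m → Additive (X0 →* ℂˣ), QQ A' L' JL' v → ∀ k, k ≠ k0 → v k = 0)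
    (O : List ((Fin m → ℤ) × List (Fin m) × Fin m)) (hO0 : ∃ t ∈ O, ∀ i, t.1 i = dl k0 i)
    (hO : ∀ t ∈ O, ∀ j, ∃ t' ∈ O, ∀ i, act A' j t.1 i = t'.1 i)
    (js : List (Fin m)) (hO1 : ∀ t ∈ O, cert A' L JL t js = true) :
    fx ρ (RGD.B cs (isCartan m) T X) ≠ ⊥ := by
  obtain ⟨l, hl, hQ⟩ := exists_cc R hG hT hρ h0 hL hlet hJ ht hχ td hd
  obtain ⟨l', hl', hQ'⟩ := exists_cc R hG hT hρ h0 hL' hlet' hJ' ht' hχ' td hd'
  have h1 := hK _ hQ'
  obtain ⟨w, hw⟩ := exists_mv R hG hρ hl' hl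
  obtain ⟨ω, rfl⟩ := cs.wordProd_surjective w
  have h6 : cc td l' = 0 := alg_orb (cc_word td ω hw) h1 O hO0 hO hO1 hQ
  rw [← Vl_one R, ← eq_one_of_cc td h6]
  exact hl'

end Rho

end Cfsg.Agent.H200.VZ
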