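import Cfsg.Agent.H200.VZ.FixD

/-!
# S4842: the torus data used for `V^B ≠ 0` (helper200)

* `TD A' hh` : homomorphisms `hh j : X0 → T` ("coroots") generating `T`, with the action of the `n i`;
* `HD hh J t` : the diagonal automorphisms ("fundamental coweights") `d` with `d (n j) = n j hh_j(x)`,
  `d (n i) = n i`, `i ≠ j`; they fix the `L_J`-class of `t`.
-/

set_option autoImplicit false
set_option linter.unusedSectionVars false

open Cfsg

namespace Cfsg.Agent.H200.VZ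

open CoxeterSystem Cfsg.Agent.ChevalleyStructure.CoxeterGeom Cfsg.Agent.Tits.Roots Cfsg.Agent.Tits.Core
  Cfsg.Agent.Tits.Exchange Cfsg.Agent.Nodes.Reps Cfsg.Agent.Nodes.BNOf Cfsg.Agent.Nodes.StabComb
  Cfsg.Agent.Nodes.Bruhat Cfsg.Agent.Nodes.OppDec Cfsg.Agent.Nodes.LeviDec Cfsg.Agent.H985.VZ Module

universe u v

variable {I W : Type*} {Y : Type u} [Fintype I] [DecidableEq I] [Group W] [Group Y] {M : CoxeterMatrix I}

/-- the coroots -/
structure TD (T : Subgroup Y) (n : I → Y) {X0 : Type*} [Group X0] (A' : I → I → ℤ) (hh : I → X0 →* Y) : Prop where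
  mem : ∀ j x, hh j x ∈ T
  conj : ∀ i j x, (n i)⁻¹ * hh j x * n i = hh j x * (hh i x) ^ (-A' j i)
  gen : T ≤ Subgroup.closure {y | ∃ j x, y = hh j x}

/-- the fundamental coweights, fixing the class of `t` -/
def HD (cs : CoxeterSystem M W) {A : I → I → ℤ} (h : IsCartan M A) (T : Subgroup Y) (n : I → Y)
    (X : (I → ℤ) → Subgroup Y) {X0 : Type*} [Group X0] (hh : I → X0 →* Y) (J : Set I) (t : Y) : Prop :=
  ∀ j x, ∃ d : Y ≃* Y, Dia cs h T n X d ∧ (n j)⁻¹ * d (n j) = hh j x ∧ (∀ i, i ≠ j → d (n i) = n i) ∧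
    ∃ a ∈ LJ cs h T X J, d t = a * t * a⁻¹

/-- the exponents of the coroots, type `C_n` (`o = false`) or `B_n` (`o = true`): `A' j i = ⟨coroot j, root i⟩` -/
def Ap (o : Bool) (n : ℕ) (j i : Fin n) : ℤ :=
  if i = j then 2
  else if (j : ℕ) + 1 = i then (if (i : ℕ) + 1 = n ∧ o = false then -2 else -1)
  else if (i : ℕ) + 1 = j then (if (j : ℕ) + 1 = n ∧ o = true then -2 else -1)
  else 0

end Cfsg.Agent.H200.VZ
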