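import Cfsg.Agent.H985.VZ.Fix

/-!
# S4842: diagonal automorphisms and the stabilisers of the `T`-characters (helper200)

* `Dia δ` : `δ` fixes `T`, preserves the root groups and maps `n_i` into `n_i T`;
* `exists_fix_D` : `exists_fix_J` of helper985, with the additional information that the `T`-character is trivial on the
  elements `g⁻¹ δ(g)`, `g` over `w`, for all diagonal automorphisms `δ` fixing the class of `t`.
-/

set_option autoImplicit false
set_option linter.unusedSectionVars false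

open Cfsg

namespace Cfsg.Agent.H200.VZ

open CoxeterSystem Cfsg.Agent.ChevalleyStructure.CoxeterGeom Cfsg.Agent.Tits.Roots Cfsg.Agent.Tits.Core
  Cfsg.Agent.Tits.Exchange Cfsg.Agent.Nodes.Reps Cfsg.Agent.Nodes.BNOf Cfsg.Agent.Nodes.StabComb
  Cfsg.Agent.Nodes.Bruhat Cfsg.Agent.Nodes.OppDec Cfsg.Agent.Nodes.LeviDec Cfsg.Agent.H985.VZ Module

universe u v

/-! ### abstract lemmas -/

section abs

variable {P : Type u} [Group P] [Finite P] {V : Type v} [AddCommGroup V] [Module ℂ V] [FiniteDimensional ℂ V]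
  {σ : Representation ℂ P V}

/-- the sum version of the vanishing lemma -/
theorem char_zero_sum (hσ : σ.IsIrreducible) {B : Subgroup P} {l : B →* ℂˣ} (hE : eig σ B l ≠ ⊥) {t : P}
    (h : ∑ᶠ g : P, LinearMap.trace ℂ V (el σ B l * σ (g⁻¹ * t * g)) = 0) : σ.character t = 0 := by
  classical
  let _ : Fintype P := Fintype.ofFinite P
  obtain ⟨c, hc⟩ := schur hσ (f := RkOne.ss σ B l) fun g v => RkOne.ss_comm g v
  have h1 : RkOne.ss σ B l = c • 1 := LinearMap.ext fun v => hc v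
  have h2 := RkOne.trace_ss (ρ := σ) (B := B) (l := l)
  have hc0 : c ≠ 0 := by
    rintro rfl
    rw [h1, zero_smul, map_zero] at h2
    have h4 : (Nat.card P : ℂ) ≠ 0 := by exact_mod_cast Nat.card_pos.ne'
    have h5 : (finrank ℂ (eig σ B l) : ℂ) ≠ 0 := by
      intro h
      apply hE
      exact Submodule.finrank_eq_zero.1 (by exact_mod_cast h)
    exact mul_ne_zero (inv_ne_zero (card_ne B)) (mul_ne_zero h4 h5) h2.symm
  have h3 : LinearMap.trace ℂ V (σ t * RkOne.ss σ B l) = c * σ.character t := by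
    rw [h1, mul_smul_comm, mul_one, map_smul, smul_eq_mul]
    rfl
  have h4 : LinearMap.trace ℂ V (σ t * RkOne.ss σ B l) = 0 := by
    unfold RkOne.ss
    rw [finsum_eq_sum_of_fintype, mul_smul_comm, map_smul, Finset.mul_sum, map_sum]
    rw [finsum_eq_sum_of_fintype] at h
    rw [Finset.sum_congr rfl (g := fun g : P => LinearMap.trace ℂ V (el σ B l * σ (g⁻¹ * t * g))), h, smul_zero]
    intro g _
    have e1 : σ t * (σ g * el σ B l * σ g⁻¹) = (σ t * σ g * el σ B l) * σ g⁻¹ := by simp only [mul_assoc]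
    have e2 : σ g⁻¹ * (σ t * σ g * el σ B l) = σ (g⁻¹ * t * g) * el σ B l := by
      rw [map_mul, map_mul]
      simp only [mul_assoc]
    rw [e1, LinearMap.trace_mul_comm, e2, LinearMap.trace_mul_comm]
  rw [h4] at h3
  rcases mul_eq_zero.1 h3.symm with h5 | h5
  · exact absurd h5 hc0
  · exact h5

/-- the sum over a class, cell by cell -/
theorem sum_cells {ι : Type*} [Finite ι] (cell : P → ι) (F : P → ℂ) (t : P)
    (h : ∀ i, (∀ g : P, cell (g⁻¹ * t * g) ≠ i) ∨ (∀ x, cell x = i → F x = 0) ∨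
      ∃ (d : P ≃* P) (c : ℂ) (a : P), c ≠ 1 ∧ d t = a * t * a⁻¹ ∧ (∀ x, cell (d x) = i ↔ cell x = i) ∧
        ∀ x, cell x = i → F (d x) = c * F x) : ∑ᶠ g : P, F (g⁻¹ * t * g) = 0 := by
  classical
  let _ : Fintype P := Fintype.ofFinite P
  let _ : Fintype ι := Fintype.ofFinite ι
  rw [finsum_eq_sum_of_fintype, ← Finset.sum_fiberwise (g := fun g : P => cell (g⁻¹ * t * g))]
  refine Finset.sum_eq_zero fun i _ => ?_
  rcases h i with h1 | h1 | ⟨d, c, a, hc, hd, h2, h3⟩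
  · refine Finset.sum_eq_zero fun g hg => ?_
    exact absurd (Finset.mem_filter.1 hg).2 (h1 g)
  · exact Finset.sum_eq_zero fun g hg => h1 _ (Finset.mem_filter.1 hg).2
  · set S := ∑ g ∈ Finset.univ.filter (fun g : P => cell (g⁻¹ * t * g) = i), F (g⁻¹ * t * g) with hS
    have key : ∀ g : P, (a⁻¹ * d g)⁻¹ * t * (a⁻¹ * d g) = d (g⁻¹ * t * g) := by
      intro g
      rw [map_mul, map_mul, hd, map_inv]
      group
    have e1 : S = c * S := by
      conv_lhs => rw [hS]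
      rw [hS, Finset.mul_sum]
      symm
      refine Finset.sum_bij (fun g _ => a⁻¹ * d g) ?_ ?_ ?_ ?_
      · intro g hg
        rw [Finset.mem_filter] at hg ⊢
        refine ⟨Finset.mem_univ _, ?_⟩
        rw [key, h2]
        exact hg.2
      · intro g _ g' _ e
        exact d.injective (mul_left_cancel e)
      · intro g hg
        refine ⟨d.symm (a * g), ?_, ?_⟩
        · rw [Finset.mem_filter] at hg ⊢
          refine ⟨Finset.mem_univ _, ?_⟩
          rw [← h2, ← key, MulEquiv.apply_symm_apply, inv_mul_cancel_left]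
          exact hg.2
        · rw [MulEquiv.apply_symm_apply, inv_mul_cancel_left]
      · intro g hg
        rw [key, h3 _ (Finset.mem_filter.1 hg).2]
    have e2 : (1 - c) * S = 0 := by rw [sub_mul, one_mul, ← e1, sub_self]
    exact (mul_eq_zero.1 e2).resolve_left (sub_ne_zero.2 hc.symm)

end abs

variable {I W : Type*} {Y : Type u} [Fintype I] [DecidableEq I] [Group W] [Group Y] {M : CoxeterMatrix I}

/-- a diagonal automorphism -/
structure Dia (cs : CoxeterSystem M W) {A : I → I → ℤ} (h : IsCartan M A) (T : Subgroup Y) (n : I → Y)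
    (X : (I → ℤ) → Subgroup Y) (d : Y ≃* Y) : Prop where
  tor : ∀ t ∈ T, d t = t
  root : ∀ x, IsRoot cs h x → ∀ u ∈ X x, d u ∈ X x
  nn : ∀ i, (n i)⁻¹ * d (n i) ∈ T

variable {cs : CoxeterSystem M W} {A : I → I → ℤ} {h : IsCartan M A} {p : ℕ} {T : Subgroup Y} {n : I → Y}
  {X : (I → ℤ) → Subgroup Y}

namespace Dia

variable {d : Y ≃* Y} (D : Dia cs h T n X d)

include D

theorem sup_mem {S : Set (I → ℤ)} (hS : ∀ x ∈ S, IsRoot cs h x) {u : Y} (hu : u ∈ RGD.Sup X S) : d u ∈ RGD.Sup X S := by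
  have h1 : RGD.Sup X S ≤ (RGD.Sup X S).comap d.toMonoidHom := by
    refine RGD.Sup_le fun x hx u hu => ?_
    exact RGD.le_Sup (X := X) hx (D.root x (hS x hx) u hu)
  exact h1 hu

theorem U_mem {u : Y} (hu : u ∈ RGD.Sup X (RGD.Pos cs h)) : d u ∈ RGD.Sup X (RGD.Pos cs h) :=
  D.sup_mem (fun _ hx => hx.1) hu

theorem B_mem {b : Y} (hb : b ∈ RGD.B cs h T X) : d b ∈ RGD.B cs h T X := by
  have h1 : RGD.B cs h T X ≤ (RGD.B cs h T X).comap d.toMonoidHom := by
    refine sup_le (fun t ht => ?_) fun u hu => ?_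
    · change d t ∈ RGD.B cs h T X
      rw [D.tor t ht]
      exact RGD.T_le_B ht
    · exact RGD.U_le_B (D.U_mem hu)
  exact h1 hb

theorem LJ_mem {J : Set I} {b : Y} (hb : b ∈ LJ cs h T X J) : d b ∈ LJ cs h T X J := by
  have h1 : LJ cs h T X J ≤ (LJ cs h T X J).comap d.toMonoidHom := by
    refine sup_le (fun t ht => ?_) fun u hu => ?_
    · change d t ∈ LJ cs h T X J
      rw [D.tor t ht]
      exact T_le_LJ ht
    · exact le_sup_right (a := T) (D.sup_mem (fun _ hx => hx.1) hu)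
  exact h1 hb

theorem PJ_mem {J : Set I} {b : Y} (hb : b ∈ PJ cs h T X J) : d b ∈ PJ cs h T X J := by
  have h1 : PJ cs h T X J ≤ (PJ cs h T X J).comap d.toMonoidHom := by
    refine sup_le (fun t ht => LJ_le_PJ (D.LJ_mem ht)) fun u hu => ?_
    exact VJ_le_PJ (D.sup_mem (fun _ hx => hx.1) hu)
  exact h1 hb

theorem rp {hN : NSys M T n} {w : W} {g : Y} (hg : Rp cs hN w g) : g⁻¹ * d g ∈ T := by
  obtain ⟨ω, rfl⟩ := cs.wordProd_surjective w
  induction ω generalizing g with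
  | nil =>
    rw [wordProd_nil] at hg
    rw [D.tor g hg.mem_of_one, inv_mul_cancel]
    exact one_mem _
  | cons i ω ih =>
    rw [wordProd_cons] at hg
    have h1 : Rp cs hN (cs.wordProd ω) ((n i)⁻¹ * g) := by
      have := (rp_simple cs hN i).inv.mul hg
      rwa [inv_mul_cancel_left] at this
    have h2 := ih h1
    have h3 : g⁻¹ * d g = ((n i)⁻¹ * g)⁻¹ * ((n i)⁻¹ * d (n i)) * ((n i)⁻¹ * g) * (((n i)⁻¹ * g)⁻¹ * d ((n i)⁻¹ * g)) := by
      rw [map_mul, map_inv]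
      group
    rw [h3]
    refine mul_mem ?_ h2
    have := (Subgroup.mem_normalizer_iff.1 (h1.inv.mem_normalizer) ((n i)⁻¹ * d (n i))).1 (D.nn i)
    rwa [inv_inv] at this

theorem rp' {hN : NSys M T n} {w : W} {g : Y} (hg : Rp cs hN w g) : Rp cs hN w (d g) := by
  have := hg.mul_mem_right (D.rp hg)
  rwa [mul_inv_cancel_left] at this

theorem cell {hN : NSys M T n} {w : W} {g : Y} (hg : Cell hN cs h X w g) : Cell hN cs h X w (d g) := by
  obtain ⟨b₁, hb₁, k, hk, b₂, hb₂, rfl⟩ := hg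
  exact ⟨d b₁, D.B_mem hb₁, d k, D.rp' hk, d b₂, D.B_mem hb₂, by rw [map_mul, map_mul]⟩

theorem lam [Finite W] (R : RGD cs h p T n X) (l : T →* ℂˣ) {b : Y} (hb : b ∈ RGD.B cs h T X) :
    lamB R l ⟨d b, D.B_mem hb⟩ = lamB R l ⟨b, hb⟩ := by
  obtain ⟨t, ht, u, hu, rfl⟩ := R.mem_B.1 hb
  rw [lamB_mul R l ht hu]
  have e : (⟨d (t * u), D.B_mem hb⟩ : RGD.B cs h T X) = ⟨t * d u, mul_mem (RGD.T_le_B ht) (RGD.U_le_B (D.U_mem hu))⟩ :=
    Subtype.ext (by
      change d (t * u) = t * d u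
      rw [map_mul, D.tor t ht])
  rw [e, lamB_mul R l ht (D.U_mem hu)]

end Dia

variable (R : RGD cs h p T n X) [Finite W] [Finite Y] {V : Type v} [AddCommGroup V] [Module ℂ V]
  {ρ : Representation ℂ Y V}

include R

/-- **the stabilisers of the `T`-characters, with diagonal automorphisms** -/
theorem exists_fix_D [FiniteDimensional ℂ V] (hG : GG cs h T X = ⊤) (hT : ∀ s ∈ T, ∀ t ∈ T, s * t = t * s)
    (hρ : ρ.IsIrreducible) (h0 : VU cs h X ρ ≠ ⊥) {J : Set I} {t : Y} (ht : Ell cs h T X J t)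
    (hχ : ρ.character t ≠ 0) {D : Set (Y ≃* Y)} (hD : ∀ d ∈ D, Dia cs h T n X d ∧ ∃ a ∈ LJ cs h T X J, d t = a * t * a⁻¹) :
    ∃ l : T →* ℂˣ, Vl cs h T X ρ l ≠ ⊥ ∧ ∀ v ∈ WJ cs J, ∀ l', Mv cs R.nsys v l l' →
      ∀ K, K ⊂ J → ∃ w ∈ WJ cs J, w ∉ WJ cs K ∧ Mv cs R.nsys w l' l' ∧
        ∀ d ∈ D, ∀ g, Rp cs R.nsys w g → ∀ s : T, (s : Y) = g⁻¹ * d g → l' s = 1 := by
  classical
  by_contra hcon
  push Not at hcon
  apply hχ
  have htP : t ∈ PJ cs h T X J := LJ_le_PJ ht.toFree.mem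
  let ι : ↥(PJ cs h T X J) →* Y := (PJ cs h T X J).subtype
  have hB : RGD.B cs h T X ≤ ι.range := by
    intro b hb
    exact ⟨⟨b, B_le_PJ hb⟩, rfl⟩
  let U : Subrepresentation (ρ.comp ι) := ⟨fx ρ (VJ cs h X J), fun g v hv => rho_fx_VJ R g.2 hv⟩
  have h1 : ρ.character t = U.toRepresentation.character ⟨t, htP⟩ := by
    rw [ht.toFree.trace_eq R]
    have h2 : ∀ x, (ρ t * av ρ (VJ cs h X J)) x ∈ fx ρ (VJ cs h X J) := fun x => rho_fx_VJ R htP (av_mem ρ _ x)
    rw [← LinearMap.trace_restrict_eq_of_forall_mem (fx ρ (VJ cs h X J)) (ρ t * av ρ (VJ cs h X J)) h2 fun x _ => h2 x]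
    change _ = LinearMap.trace ℂ _ (U.toRepresentation ⟨t, htP⟩)
    congr 1
    ext x
    change ρ t (av ρ (VJ cs h X J) x) = ρ t x
    rw [av_of_mem x.2]
  rw [h1]
  refine char_eq_zero_of_irr _ U le_rfl fun N hNU hNi => ?_
  have hN0 : N.toSubmodule ≠ ⊥ := by
    intro hb
    obtain ⟨a, b, hab⟩ := (hNi.1 : Nontrivial (Subrepresentation N.toRepresentation))
    apply hab
    apply Subrepresentation.toSubmodule_injective
    have h2 : Subsingleton N.toSubmodule := by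
      rw [hb]
      infer_instance
    ext x
    rw [Subsingleton.elim x 0]
    exact ⟨fun _ => Submodule.zero_mem _, fun _ => Submodule.zero_mem _⟩
  have hNs : ∀ g ∈ PJ cs h T X J, ∀ v ∈ N.toSubmodule, ρ g v ∈ N.toSubmodule := fun g hg v hv =>
    N.apply_mem_toSubmodule ⟨g, hg⟩ hv
  -- `N` contains vectors fixed by `U`
  have hNU : N.toSubmodule ⊓ VU cs h X ρ ≠ ⊥ := by
    intro hb
    obtain ⟨N', hN'⟩ := Cfsg.Agent.Characters.Core.exists_isCompl_sub N
    have h2 : ∀ v ∈ VU cs h X ρ, v ∈ N'.toSubmodule := by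
      intro v hv
      have h3 : v ∈ N.toSubmodule ⊔ N'.toSubmodule := by
        rw [hN'.sup_eq_top]
        exact Submodule.mem_top
      obtain ⟨a, ha, b, hb', rfl⟩ := Submodule.mem_sup.1 h3
      have h4 : a ∈ N.toSubmodule ⊓ VU cs h X ρ := by
        refine ⟨ha, fun u hu => ?_⟩
        have huP : u ∈ PJ cs h T X J := B_le_PJ (RGD.U_le_B hu)
        have h5 := hv u hu
        rw [map_add] at h5
        have h6 : ρ u a - a ∈ N.toSubmodule ⊓ N'.toSubmodule := by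
          refine ⟨N.toSubmodule.sub_mem (hNs u huP a ha) ha, ?_⟩
          have h7 : ρ u a - a = b - ρ u b := by
            rw [sub_eq_sub_iff_add_eq_add, h5]
            exact add_comm _ _
          rw [h7]
          exact N'.toSubmodule.sub_mem hb' (N'.apply_mem_toSubmodule ⟨u, huP⟩ hb')
        rw [hN'.inf_eq_bot, Submodule.mem_bot] at h6
        exact sub_eq_zero.1 h6
      rw [hb, Submodule.mem_bot] at h4
      rw [h4, zero_add]
      exact hb'
    have h3 := gen_VJ R hG hρ h0 J (S := N'.toSubmodule) fun g hg v hv =>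
      N'.apply_mem_toSubmodule ⟨g, hg⟩ (h2 v hv)
    apply hN0
    rw [eq_bot_iff]
    intro x hx
    have h4 : x ∈ N.toSubmodule ⊓ N'.toSubmodule := ⟨hx, h3 (hNU hx)⟩
    rw [hN'.inf_eq_bot] at h4
    exact h4
  obtain ⟨l, v, hv, hv0, hvl⟩ := exists_eig hT hNU fun s hs v hv =>
    ⟨hNs s (B_le_PJ (RGD.T_le_B hs)) v hv.1, rho_VU R (RGD.T_le_B hs) hv.2⟩
  have hl : Vl cs h T X ρ l ≠ ⊥ := by
    intro hb
    have h2 : v ∈ Vl cs h T X ρ l := ⟨hv.2, hvl⟩
    rw [hb] at h2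
    exact hv0 h2
  obtain ⟨w, hw, l', hm, K, hK, hst⟩ := hcon l hl
  obtain ⟨x, hx, hx0, hxl⟩ := exists_mem_of_mv R hNs hw hm ⟨v, hv.1, hv0, hv.2, hvl⟩
  have hxl' := hxl
  rw [Vl_eq R] at hxl'
  -- the Borel subgroup of `P_J`
  set B' : Subgroup (PJ cs h T X J) := (RGD.B cs h T X).comap ι with hB'
  set m : B' →* ℂˣ := (lamB R l').comp (ι.subgroupComap (RGD.B cs h T X)) with hm'
  have hmb : ∀ b (hb : b ∈ RGD.B cs h T X), m ⟨⟨b, B_le_PJ hb⟩, hb⟩ = lamB R l' ⟨b, hb⟩ := fun b hb => rfl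
  set e : Module.End ℂ N.toSubmodule := el N.toRepresentation B' m with he
  refine char_zero_sum hNi (B := B') (l := m) ?_ ?_
  · intro hb
    have h2 : (⟨x, hx⟩ : N.toSubmodule) ∈ eig N.toRepresentation B' m := by
      rw [mem_eig_sub, mem_eig_comap ι hB]
      exact hxl'
    rw [hb] at h2
    exact hx0 (congrArg Subtype.val h2)
  -- the function on `P_J`
  have hel : ∀ b (hb : b ∈ RGD.B cs h T X), e * N.toRepresentation ⟨b, B_le_PJ hb⟩ = (lamB R l' ⟨b, hb⟩ : ℂ) • e := by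
    intro b hb
    ext v
    have := el_rho N.toRepresentation B' m ⟨⟨b, B_le_PJ hb⟩, hb⟩ v
    rw [hmb] at this
    exact congrArg Subtype.val this
  have her : ∀ b (hb : b ∈ RGD.B cs h T X), N.toRepresentation ⟨b, B_le_PJ hb⟩ * e = (lamB R l' ⟨b, hb⟩ : ℂ) • e := by
    intro b hb
    ext v
    have := rho_el N.toRepresentation B' m ⟨⟨b, B_le_PJ hb⟩, hb⟩ v
    rw [hmb] at this
    exact congrArg Subtype.val this
  have hF : ∀ (b₁ : Y) (hb₁ : b₁ ∈ RGD.B cs h T X) (k : PJ cs h T X J) (b₂ : Y) (hb₂ : b₂ ∈ RGD.B cs h T X),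
      LinearMap.trace ℂ N.toSubmodule (e * N.toRepresentation (⟨b₁, B_le_PJ hb₁⟩ * k * ⟨b₂, B_le_PJ hb₂⟩)) =
        (lamB R l' ⟨b₁, hb₁⟩ : ℂ) * (lamB R l' ⟨b₂, hb₂⟩ : ℂ) * LinearMap.trace ℂ N.toSubmodule (e * N.toRepresentation k) := by
    intro b₁ hb₁ k b₂ hb₂
    have e1 : e * N.toRepresentation (⟨b₁, B_le_PJ hb₁⟩ * k * ⟨b₂, B_le_PJ hb₂⟩) =
        ((lamB R l' ⟨b₁, hb₁⟩ : ℂ) • (e * N.toRepresentation k)) * N.toRepresentation ⟨b₂, B_le_PJ hb₂⟩ := by
      rw [N.toRepresentation.map_mul, N.toRepresentation.map_mul, ← mul_assoc, ← mul_assoc, hel, smul_mul_assoc]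
    have e2 : N.toRepresentation ⟨b₂, B_le_PJ hb₂⟩ * ((lamB R l' ⟨b₁, hb₁⟩ : ℂ) • (e * N.toRepresentation k)) =
        ((lamB R l' ⟨b₁, hb₁⟩ : ℂ) * (lamB R l' ⟨b₂, hb₂⟩ : ℂ)) • (e * N.toRepresentation k) := by
      rw [mul_smul_comm, ← mul_assoc, her, smul_mul_assoc, smul_smul]
    rw [e1, LinearMap.trace_mul_comm, e2, map_smul, smul_eq_mul]
  have hcex : ∀ z : PJ cs h T X J, ∃ w, Cell R.nsys cs h X w (z : Y) := fun z => by
    obtain ⟨w, -, hc⟩ := (mem_PJ_iff_cell R).1 z.2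
    exact ⟨w, hc⟩
  choose cell hcell using hcex
  have hcu : ∀ (z : PJ cs h T X J) (w : W), cell z = w ↔ Cell R.nsys cs h X w (z : Y) := fun z w =>
    ⟨fun hz => hz ▸ hcell z, fun hz => Cell.unique R (hcell z) hz⟩
  refine sum_cells cell (fun z => LinearMap.trace ℂ N.toSubmodule (e * N.toRepresentation z)) _ fun w' => ?_
  by_cases hw' : w' ∈ WJ cs J
  swap
  · left
    intro g hg
    apply hw'
    rw [hcu] at hg
    exact (cell_mem_PJ_iff R hg).1 (g⁻¹ * ⟨t, htP⟩ * g).2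
  by_cases hwK : w' ∈ WJ cs K
  · left
    intro g hg
    rw [hcu] at hg
    exact ht.not_mem R hK g.2 ((cell_mem_PJ_iff R hg).2 hwK)
  right
  by_cases hmv : Mv cs R.nsys w' l' l'
  swap
  · left
    intro z hz
    rw [hcu] at hz
    obtain ⟨b₁, hb₁, k, hk, b₂, hb₂, ez⟩ := hz
    have hkP : k ∈ PJ cs h T X J := LJ_le_PJ (rp_mem_LJ R hw' hk)
    have ez' : z = ⟨b₁, B_le_PJ hb₁⟩ * ⟨k, hkP⟩ * ⟨b₂, B_le_PJ hb₂⟩ := Subtype.ext ez
    rw [ez', hF b₁ hb₁ ⟨k, hkP⟩ b₂ hb₂]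
    have hee : e * e = e := LinearMap.ext fun v => el_idem N.toRepresentation B' m v
    have h5 : e * N.toRepresentation ⟨k, hkP⟩ * e = 0 := by
      apply LinearMap.ext
      intro v
      apply Subtype.ext
      rw [Module.End.mul_apply, Module.End.mul_apply, he, el_sub, el_comap ι (Subgroup.subtype_injective _) hB]
      have hy : ((el N.toRepresentation B' m v : N.toSubmodule) : V) ∈ Vl cs h T X ρ l' := by
        have := el_mem N.toRepresentation B' m v
        rw [mem_eig_sub, mem_eig_comap ι hB, ← Vl_eq R] at this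
        exact this
      exact el_rho_eq_zero R hk hmv hy
    have h6 : LinearMap.trace ℂ N.toSubmodule (e * N.toRepresentation ⟨k, hkP⟩) = 0 := by
      rw [← hee, mul_assoc, LinearMap.trace_mul_comm, h5, map_zero]
    rw [h6, mul_zero]
  · right
    obtain ⟨d, hd, g₀, hg₀, s, hs, hls⟩ := hst w' hw' hwK hmv
    obtain ⟨hDia, a, ha, hda⟩ := hD d hd
    -- `d` restricted to `P_J`
    have hdP : ∀ z ∈ PJ cs h T X J, d z ∈ PJ cs h T X J := fun z hz => hDia.PJ_mem hz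
    let dP : PJ cs h T X J →* PJ cs h T X J := (d.toMonoidHom.comp (PJ cs h T X J).subtype).codRestrict _ fun z => hdP z z.2
    have hdi : Function.Injective dP := fun z z' ez => Subtype.ext (d.injective (congrArg Subtype.val ez))
    let dE : PJ cs h T X J ≃* PJ cs h T X J := MulEquiv.ofBijective dP (Finite.injective_iff_bijective.1 hdi)
    have hdE : ∀ z, ((dE z : PJ cs h T X J) : Y) = d z := fun z => rfl
    refine ⟨dE, (l' s : ℂ), ⟨a, LJ_le_PJ ha⟩, ?_, ?_, ?_, ?_⟩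
    · intro h5
      exact hls (Units.ext h5)
    · exact Subtype.ext hda
    · intro z
      rw [hcu, hcu, hdE]
      constructor
      · intro hz
        have h5 := hDia.cell (hcell z)
        have h6 : cell z = w' := Cell.unique R h5 hz
        rw [← h6]
        exact hcell z
      · exact fun hz => hDia.cell hz
    · intro z hz
      rw [hcu] at hz
      obtain ⟨b₁, hb₁, k, hk, b₂, hb₂, ez⟩ := hz
      have hg₀P : g₀ ∈ PJ cs h T X J := LJ_le_PJ (rp_mem_LJ R hw' hg₀)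
      have h5 : g₀⁻¹ * k ∈ T := hg₀.unique hk
      have hb₂' : g₀⁻¹ * k * b₂ ∈ RGD.B cs h T X := mul_mem (RGD.T_le_B h5) hb₂
      have ez' : z = ⟨b₁, B_le_PJ hb₁⟩ * ⟨g₀, hg₀P⟩ * ⟨g₀⁻¹ * k * b₂, B_le_PJ hb₂'⟩ := Subtype.ext (by
        change (z : Y) = b₁ * g₀ * (g₀⁻¹ * k * b₂)
        rw [ez]; group)
      have hsd : (s : Y) * d (g₀⁻¹ * k * b₂) ∈ RGD.B cs h T X := mul_mem (RGD.T_le_B s.2) (hDia.B_mem hb₂')
      have ez2 : dE z = ⟨d b₁, B_le_PJ (hDia.B_mem hb₁)⟩ * ⟨g₀, hg₀P⟩ * ⟨s * d (g₀⁻¹ * k * b₂), B_le_PJ hsd⟩ :=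
        Subtype.ext (by
          change d (z : Y) = d b₁ * g₀ * (s * d (g₀⁻¹ * k * b₂))
          rw [hs, ez, map_mul, map_mul, map_mul, map_mul, map_inv]
          group)
      change LinearMap.trace ℂ N.toSubmodule (e * N.toRepresentation (dE z)) =
        (l' s : ℂ) * LinearMap.trace ℂ N.toSubmodule (e * N.toRepresentation z)
      rw [ez2, hF _ (hDia.B_mem hb₁) _ _ hsd, ez', hF b₁ hb₁ _ _ hb₂', hDia.lam R l' hb₁]
      have h6 : lamB R l' ⟨s * d (g₀⁻¹ * k * b₂), hsd⟩ = l' s * lamB R l' ⟨g₀⁻¹ * k * b₂, hb₂'⟩ := by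
        have h7 : (⟨s * d (g₀⁻¹ * k * b₂), hsd⟩ : RGD.B cs h T X) =
            ⟨s, RGD.T_le_B s.2⟩ * ⟨d (g₀⁻¹ * k * b₂), hDia.B_mem hb₂'⟩ := rfl
        rw [h7, map_mul, lamB_T R l' s.2, hDia.lam R l' hb₂']
      rw [h6, Units.val_mul]
      ring

end Cfsg.Agent.H200.VZ
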