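import Cfsg.Agent.H631.VZ.Supp
import Cfsg.Agent.H985.VZ.Fix

/-!
# S4842: the supports seen by elliptic elements (helper200)

`exists_supp` : `t` elliptic in `L_J`, `χ(t) ≠ 0`: some irreducible `M ≤ V^{V_J}` has a minimal `S ⊆ J` with
`M ∩ V^{V_S} ≠ 0` such that some `w ∈ W_J` maps the simple roots of `S` into simple roots of `S` and lies in no proper
standard parabolic subgroup `W_K`, `S ⊆ K ⊂ J`.
-/

set_option autoImplicit false
set_option linter.unusedSectionVars false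

open Cfsg

namespace Cfsg.Agent.H200.VZ

open CoxeterSystem Cfsg.Agent.ChevalleyStructure.CoxeterGeom Cfsg.Agent.Tits.Roots Cfsg.Agent.Tits.Core
  Cfsg.Agent.Tits.Exchange Cfsg.Agent.Nodes.Reps Cfsg.Agent.Nodes.BNOf Cfsg.Agent.Nodes.StabComb
  Cfsg.Agent.Nodes.Bruhat Cfsg.Agent.Nodes.OppDec Cfsg.Agent.Nodes.LeviDec Cfsg.Agent.H985.VZ Module
  Cfsg.Agent.H631.VZ

universe u v

variable {I W : Type*} {Y : Type u} [Fintype I] [DecidableEq I] [Group W] [Group Y] {M : CoxeterMatrix I}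
  {cs : CoxeterSystem M W} {A : I → I → ℤ} {h : IsCartan M A} {p : ℕ} {T : Subgroup Y} {n : I → Y}
  {X : (I → ℤ) → Subgroup Y} {V : Type v} [AddCommGroup V] [Module ℂ V] {ρ : Representation ℂ Y V}

theorem exists_supp (R : RGD cs h p T n X) [Finite W] [Finite Y] [FiniteDimensional ℂ V] {J : Set I} {t : Y}
    (ht : Ell cs h T X J t) (hχ : ρ.character t ≠ 0) :
    ∃ (M : Submodule ℂ V) (S : Set I), S ⊆ J ∧ Irr ρ (LJ cs h T X J) M ∧ M ≤ fx ρ (VJ cs h X J) ∧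
      M ⊓ fx ρ (VJ cs h X S) ≠ ⊥ ∧ (∀ S' : Set I, S' ⊂ S → M ⊓ fx ρ (VJ cs h X S') = ⊥) ∧
      ∃ w ∈ WJ cs J, (∀ j ∈ S, ∃ k ∈ S, rep cs h w (sr j) = sr k) ∧ ∀ K : Set I, S ⊆ K → K ⊂ J → w ∉ WJ cs K := by
  classical
  have hav : EI ρ (LJ cs h T X J) (av ρ (VJ cs h X J)) := by
    refine ⟨LinearMap.ext fun v => av_idem ρ _ v, fun l hl => LinearMap.ext fun v => ?_⟩
    exact av_rho_of_mem_PJ R (LJ_le_PJ hl) v
  have hrange : LinearMap.range (av ρ (VJ cs h X J)) = fx ρ (VJ cs h X J) := by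
    apply le_antisymm
    · rintro _ ⟨v, rfl⟩
      exact av_mem _ _ _
    · exact fun v hv => ⟨v, av_of_mem hv⟩
  rw [ht.toFree.trace_eq R] at hχ
  obtain ⟨Q, hQ, hQ1, hQ2, hirr, htr⟩ := exists_irr_proj hav hχ
  set M' := LinearMap.range Q with hM'
  have hMle : M' ≤ fx ρ (VJ cs h X J) := by
    rintro _ ⟨v, rfl⟩
    rw [← hQ2]
    exact av_mem _ _ _
  -- a minimal support
  obtain ⟨S, hSJ, hS0, hSmin⟩ : ∃ S : Set I, S ⊆ J ∧ M' ⊓ fx ρ (VJ cs h X S) ≠ ⊥ ∧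
      ∀ S' : Set I, S' ⊂ S → M' ⊓ fx ρ (VJ cs h X S') = ⊥ := by
    have hex : {S : Set I | S ⊆ J ∧ M' ⊓ fx ρ (VJ cs h X S) ≠ ⊥}.Nonempty := ⟨J, subset_rfl, by
      rw [inf_eq_left.2 hMle]
      exact hirr.ne⟩
    obtain ⟨S, hS⟩ := (Set.toFinite {S : Set I | S ⊆ J ∧ M' ⊓ fx ρ (VJ cs h X S) ≠ ⊥}).exists_minimal hex
    refine ⟨S, hS.prop.1, hS.prop.2, fun S' hS' => ?_⟩
    by_contra hne
    exact absurd (hS.le_of_le ⟨hS'.1.trans hS.prop.1, hne⟩ hS'.1) hS'.2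
  refine ⟨M', S, hSJ, hirr, hMle, hS0, hSmin, ?_⟩
  by_contra hcon
  push Not at hcon
  apply htr
  -- `Q` commutes with `V_J`
  have hQu : ∀ u ∈ VJ cs h X J, Q * ρ u = Q ∧ ρ u * Q = Q := by
    intro u hu
    constructor
    · have h1 : av ρ (VJ cs h X J) * ρ u = av ρ (VJ cs h X J) := LinearMap.ext fun v => av_rho ρ hu v
      rw [← hQ1, mul_assoc, h1]
    · have h1 : ρ u * av ρ (VJ cs h X J) = av ρ (VJ cs h X J) := LinearMap.ext fun v => rho_av ρ hu v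
      rw [← hQ2, ← mul_assoc, h1]
  have hQP : ∀ g ∈ PJ cs h T X J, Q * ρ g = ρ g * Q := by
    intro g hg
    obtain ⟨l, hl, u, hu, rfl⟩ := (mem_PJ R).1 hg
    rw [map_mul, ← mul_assoc, hQ.comm l hl, mul_assoc, (hQu u hu).1, mul_assoc, (hQu u hu).2]
  have hVSP : VJ cs h X S ≤ PJ cs h T X J := by
    refine le_trans (VJ_le_B S) B_le_PJ
  have hc : av ρ (VJ cs h X S) * Q = Q * av ρ (VJ cs h X S) := by
    let _ : Fintype (VJ cs h X S) := Fintype.ofFinite _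
    rw [av_eq, smul_mul_assoc, mul_smul_comm, Finset.sum_mul, Finset.mul_sum]
    congr 1
    exact Finset.sum_congr rfl fun u _ => (hQP u (hVSP u.2)).symm
  have hMs : Stb ρ (PJ cs h T X J) M' := Stb.PJ R hirr.stb hMle
  refine trace_eq_zero hQ hirr (p := av ρ (VJ cs h X S)) (LinearMap.ext fun v => av_idem ρ _ v) hc ?_ ?_
  · intro h1
    apply hS0
    rw [Submodule.eq_bot_iff]
    rintro v ⟨hv1, hv2⟩
    have h2 : (av ρ (VJ cs h X S) * Q) v = v := by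
      rw [Module.End.mul_apply, hQ.apply_of_mem hv1, av_of_mem hv2]
    rw [h1, LinearMap.zero_apply] at h2
    exact h2.symm
  · intro l hl
    ext v
    rw [Module.End.mul_apply, Module.End.mul_apply, LinearMap.zero_apply]
    set v' := (av ρ (VJ cs h X S) * Q) v with hv'
    have hv'1 : v' ∈ M' := by
      rw [hv', hc]
      exact ⟨_, rfl⟩
    have hv'2 : v' ∈ fx ρ (VJ cs h X S) := av_mem _ _ _
    have hx : l⁻¹ * t * l ∈ LJ cs h T X J := mul_mem (mul_mem (inv_mem hl) ht.toFree.mem) hl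
    obtain ⟨a, ha, b, hb, y, hy, k, hk, e, h1, h2⟩ := exists_dec R hSJ hSJ hx
    have hPS : PJ cs h T X S ≤ PJ cs h T X J := by
      intro g hg
      obtain ⟨w, hw, hc⟩ := (mem_PJ_iff_cell R).1 hg
      exact (mem_PJ_iff_cell R).2 ⟨w, WJ_mono cs hSJ hw, hc⟩
    have hb1 : ρ b v' ∈ M' := hMs b (hPS hb) v' hv'1
    have hb2 : ρ b v' ∈ fx ρ (VJ cs h X S) := rho_fx_VJ R hb hv'2
    rw [e, map_mul, map_mul, Module.End.mul_apply, Module.End.mul_apply, av_rho_of_mem_PJ R ha, ← mackey R h1 hk hb2]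
    by_cases hKw : Kw cs h y S S = S
    · exfalso
      obtain ⟨K, hSK, hKJ, hyK⟩ := hcon y hy fun j hj => simple_of_Kw h1 h2 (by rw [hKw]; exact hj)
      refine ht.not_mem R hKJ (LJ_le_PJ hl) ?_
      rw [e]
      have hPSK : PJ cs h T X S ≤ PJ cs h T X K := by
        intro g hg
        obtain ⟨w, hw, hc⟩ := (mem_PJ_iff_cell R).1 hg
        exact (mem_PJ_iff_cell R).2 ⟨w, WJ_mono cs hSK hw, hc⟩
      exact mul_mem (mul_mem (hPSK ha) (LJ_le_PJ (rp_mem_LJ R hyK hk))) (hPSK hb)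
    · have h5 : Kw cs h y S S ⊂ S := lt_of_le_of_ne Kw_subset hKw
      have h6 : av ρ (VJ cs h X (Kw cs h y S S)) (ρ b v') ∈ M' ⊓ fx ρ (VJ cs h X (Kw cs h y S S)) :=
        ⟨av_mem_of_stb R hirr.stb hMle hb1, av_mem _ _ _⟩
      rw [hSmin _ h5, Submodule.mem_bot] at h6
      rw [h6, map_zero, map_zero, map_zero]

/-- two elliptic elements: the supports are conjugate -/
theorem supp_conj (R : RGD cs h p T n X) [Finite W] [Finite Y] [FiniteDimensional ℂ V] (hG : GG cs h T X = ⊤)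
    (hρ : ρ.IsIrreducible) {J K : Set I} {M : Submodule ℂ V} {S : Set I} (hSJ : S ⊆ J)
    (hM : Irr ρ (LJ cs h T X J) M) (hMle : M ≤ fx ρ (VJ cs h X J)) (hS0 : M ⊓ fx ρ (VJ cs h X S) ≠ ⊥)
    (hSmin : ∀ S' : Set I, S' ⊂ S → M ⊓ fx ρ (VJ cs h X S') = ⊥) (hK : fx ρ (VJ cs h X K) ≠ ⊥) :
    ∃ w : W, ∀ k ∈ S, ∃ k' ∈ K, rep cs h w (sr k) = sr k' := by
  have hPS : PJ cs h T X S ≤ PJ cs h T X J := by
    intro g hg
    obtain ⟨w, hw, hc⟩ := (mem_PJ_iff_cell R).1 hg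
    exact (mem_PJ_iff_cell R).2 ⟨w, WJ_mono cs hSJ hw, hc⟩
  have hMs : Stb ρ (PJ cs h T X J) M := Stb.PJ R hM.stb hMle
  refine exists_of_cusp_top R hG hρ (K := S) (N := M ⊓ fx ρ (VJ cs h X S)) ?_ inf_le_right hS0 ?_ hK
  · intro l hl v hv
    exact ⟨hMs l (hPS (LJ_le_PJ hl)) v hv.1, stb_fx R S l hl v hv.2⟩
  · intro K₁ hK₁
    have := hSmin K₁ hK₁
    rw [eq_bot_iff] at this ⊢
    exact le_trans (inf_le_inf_right _ inf_le_left) this

end Cfsg.Agent.H200.VZ
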