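import Cfsg.Agent.H200.VZ.BC

/-!
# S4842: `V^B ≠ 0` for `B_n`, `C_n`, `n = 3, 4` (helper200)

The certificates and `VB_ne_three`, `VB_ne_four`.
-/

set_option autoImplicit false
set_option linter.unusedSectionVars false

open Cfsg

namespace Cfsg.Agent.H200.VZ

open CoxeterSystem Cfsg.Agent.ChevalleyStructure.CoxeterGeom Cfsg.Agent.Tits.Roots Cfsg.Agent.Tits.Core
  Cfsg.Agent.Tits.Exchange Cfsg.Agent.Nodes.Reps Cfsg.Agent.Nodes.BNOf Cfsg.Agent.Nodes.StabComb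
  Cfsg.Agent.Nodes.Bruhat Cfsg.Agent.Nodes.OppDec Cfsg.Agent.Nodes.LeviDec Cfsg.Agent.H985.VZ
  Cfsg.Agent.Nodes.TypeC
open Cfsg.Agent.H650.OZ (act actw)

/-- the orbit, with certificates -/
def O3f : List ((Fin 3 → ℤ) × List (Fin 3) × Fin 3) := [
  (![0, 1, 0], [], 1),
  (![1, -1, 1], [0], 0),
  (![-1, 0, 1], [], 0),
  (![1, 1, -1], [0], 0),
  (![-1, 2, -1], [], 0),
  (![2, -1, 0], [], 1),
  (![1, -2, 1], [], 0),
  (![-2, 1, 0], [], 1),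
  (![-1, -1, 1], [0], 0),
  (![1, 0, -1], [], 0),
  (![-1, 1, -1], [0], 0),
  (![0, -1, 0], [], 1)]

/-- the orbit, with certificates -/
def O3t : List ((Fin 3 → ℤ) × List (Fin 3) × Fin 3) := [
  (![0, 1, 0], [], 1),
  (![1, -1, 2], [0], 0),
  (![-1, 0, 2], [], 0),
  (![1, 1, -2], [0], 0),
  (![-1, 2, -2], [], 0),
  (![2, -1, 0], [], 1),
  (![1, -2, 2], [], 0),
  (![-2, 1, 0], [], 1),
  (![-1, -1, 2], [0], 0),
  (![1, 0, -2], [], 0),
  (![-1, 1, -2], [0], 0),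
  (![0, -1, 0], [], 1)]

/-- the orbit, with certificates -/
def O4f : List ((Fin 4 → ℤ) × List (Fin 4) × Fin 4) := [
  (![0, 0, 1, 0], [], 2),
  (![0, 1, -1, 1], [2], 2),
  (![1, -1, 0, 1], [0], 0),
  (![0, 1, 1, -1], [2], 2),
  (![-1, 0, 0, 1], [], 0),
  (![1, -1, 2, -1], [0], 0),
  (![0, 2, -1, 0], [], 2),
  (![-1, 0, 2, -1], [], 0),
  (![1, 1, -2, 1], [0], 0),
  (![2, -2, 1, 0], [], 2),
  (![-1, 2, -2, 1], [], 0),
  (![2, -1, -1, 1], [2], 2),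
  (![1, 1, 0, -1], [0], 0),
  (![-2, 0, 1, 0], [], 2),
  (![1, -2, 0, 1], [], 0),
  (![-1, 2, 0, -1], [], 0),
  (![-2, 1, -1, 1], [2], 2),
  (![2, -1, 1, -1], [2], 2),
  (![-1, -1, 0, 1], [0], 0),
  (![1, -2, 2, -1], [], 0),
  (![-2, 1, 1, -1], [2], 2),
  (![2, 0, -1, 0], [], 2),
  (![-1, -1, 2, -1], [0], 0),
  (![1, 0, -2, 1], [], 0),
  (![-2, 2, -1, 0], [], 2),
  (![-1, 1, -2, 1], [0], 0),
  (![1, 0, 0, -1], [], 0),
  (![0, -2, 1, 0], [], 2),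
  (![0, -1, -1, 1], [2], 2),
  (![-1, 1, 0, -1], [0], 0),
  (![0, -1, 1, -1], [2], 2),
  (![0, 0, -1, 0], [], 2)]

/-- the orbit, with certificates -/
def O4t : List ((Fin 4 → ℤ) × List (Fin 4) × Fin 4) := [
  (![0, 0, 1, 0], [], 2),
  (![0, 1, -1, 2], [2], 2),
  (![1, -1, 0, 2], [0], 0),
  (![0, 1, 1, -2], [2], 2),
  (![-1, 0, 0, 2], [], 0),
  (![1, -1, 2, -2], [0], 0),
  (![0, 2, -1, 0], [], 2),
  (![-1, 0, 2, -2], [], 0),
  (![1, 1, -2, 2], [0], 0),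
  (![2, -2, 1, 0], [], 2),
  (![-1, 2, -2, 2], [], 0),
  (![2, -1, -1, 2], [2], 2),
  (![1, 1, 0, -2], [0], 0),
  (![-2, 0, 1, 0], [], 2),
  (![1, -2, 0, 2], [], 0),
  (![-1, 2, 0, -2], [], 0),
  (![-2, 1, -1, 2], [2], 2),
  (![2, -1, 1, -2], [2], 2),
  (![-1, -1, 0, 2], [0], 0),
  (![1, -2, 2, -2], [], 0),
  (![-2, 1, 1, -2], [2], 2),
  (![2, 0, -1, 0], [], 2),
  (![-1, -1, 2, -2], [0], 0),
  (![1, 0, -2, 2], [], 0),
  (![-2, 2, -1, 0], [], 2),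
  (![-1, 1, -2, 2], [0], 0),
  (![1, 0, 0, -2], [], 0),
  (![0, -2, 1, 0], [], 2),
  (![0, -1, -1, 2], [2], 2),
  (![-1, 1, 0, -2], [0], 0),
  (![0, -1, 1, -2], [2], 2),
  (![0, 0, -1, 0], [], 2)]

section K

variable {G : Type*} [AddCommGroup G]

theorem ex_of_dl {I : Type*} [DecidableEq I] [Fintype I] {A' : I → I → ℤ} {ω : List I} {j : I} {c : I → ℤ}
    (h : ∀ k, ex A' j ω (dl k) = c k) (v : I → G) : ex A' j ω v = ∑ k, c k • v k := by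
  rw [ex_lin]
  exact Finset.sum_congr rfl fun k _ => by rw [h k]

theorem sum_dl {I : Type*} [DecidableEq I] [Fintype I] (j : I) (v : I → G) : ∑ k, dl k j • v k = v j := by
  rw [Finset.sum_eq_single j]
  · rw [dl, if_pos rfl, one_smul]
  · intro b _ hb
    rw [dl, if_neg (Ne.symm hb), zero_smul]
  · simp

theorem K3_cert : ∀ o : Bool, ∀ j ∈ ([0, 2] : List (Fin 3)), ∀ ω ∈ L3K, j ∈ ω → ∀ k, ex (Ap o 3) j ω (dl k) = dl k j := by
  decide +kernel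

theorem K_three (o : Bool) (v : Fin 3 → G) (hQ : QQ (Ap o 3) L3K [0, 2] v) : ∀ k, k ≠ 1 → v k = 0 := by
  have key : ∀ j ∈ ([0, 2] : List (Fin 3)), v j = 0 := by
    intro j hj
    obtain ⟨ω, hω, h2, h3⟩ := hQ [] (by simp) j hj
    have h4 := h3 j
    rw [ex_of_dl (K3_cert o j hj ω hω h2), sum_dl] at h4
    exact h4
  intro k hk
  fin_cases k
  · exact key 0 (by simp)
  · exact absurd rfl hk
  · exact key 2 (by simp)

theorem K4_cert3 : ∀ o : Bool, ∀ ω ∈ L4K, 3 ∈ ω → ∀ k, ex (Ap o 4) 3 ω (dl k) = dl k 3 := by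
  decide +kernel

theorem K4_cert : ∀ o : Bool, ∀ j ∈ ([0, 1] : List (Fin 4)), ∀ ω ∈ L4K, j ∈ ω →
    (∀ k, ex (Ap o 4) j ω (dl k) = dl k j) ∨ ∀ k, ex (Ap o 4) j ω (dl k) = dl k 0 + dl k 1 := by
  decide +kernel

theorem Ap4_00 : ∀ o : Bool, Ap o 4 0 0 = 2 := by decide

theorem Ap4_10 : ∀ o : Bool, Ap o 4 1 0 = -1 := by decide

theorem K_four (o : Bool) (v : Fin 4 → G) (hQ : QQ (Ap o 4) L4K [0, 1, 3] v) : ∀ k, k ≠ 2 → v k = 0 := by
  have k3 : v 3 = 0 := by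
    obtain ⟨ω, hω, h2, h3⟩ := hQ [] (by simp) 3 (by simp)
    have h4 := h3 3
    rw [ex_of_dl (K4_cert3 o ω hω h2), sum_dl] at h4
    exact h4
  have key : ∀ υ : List (Fin 4), (∀ i ∈ υ, i ∈ ([0, 1, 3] : List (Fin 4))) → ∀ j ∈ ([0, 1] : List (Fin 4)),
      actw (Ap o 4) υ v j = 0 ∨ actw (Ap o 4) υ v 0 + actw (Ap o 4) υ v 1 = 0 := by
    intro υ hυ j hj
    obtain ⟨ω, hω, h2, h3⟩ := hQ υ hυ j (by revert j; decide)
    have h4 := h3 j
    rcases K4_cert o j hj ω hω h2 with h5 | h5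
    · rw [ex_of_dl h5, sum_dl] at h4
      exact Or.inl h4
    · rw [ex_of_dl h5] at h4
      simp only [add_smul, Finset.sum_add_distrib, sum_dl] at h4
      exact Or.inr h4
  have e0 : actw (Ap o 4) [0] v 0 = - v 0 := by
    change v 0 - Ap o 4 0 0 • v 0 = _
    rw [Ap4_00]
    abel
  have e1 : actw (Ap o 4) [0] v 1 = v 1 + v 0 := by
    change v 1 - Ap o 4 1 0 • v 0 = _
    rw [Ap4_10]
    abel
  have a0 : v 0 = 0 ∨ v 0 + v 1 = 0 := key [] (by simp) 0 (by simp)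
  have a1 : v 1 = 0 ∨ v 0 + v 1 = 0 := key [] (by simp) 1 (by simp)
  have b0 := key [0] (by simp) 0 (by simp)
  rw [e0, e1] at b0
  have h0 : v 0 = 0 := by
    rcases a0 with h | h
    · exact h
    · rcases b0 with h' | h'
      · exact neg_eq_zero.1 h'
      · have : v 1 = 0 := by
          rw [← h']
          abel
        rwa [this, add_zero] at h
  have h1 : v 1 = 0 := by
    rcases a1 with h | h
    · exact h
    · rwa [h0, zero_add] at h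
  intro k hk
  fin_cases k
  · exact h0
  · exact h1
  · exact absurd rfl hk
  · exact k3

end K

/-! ### certificates -/

theorem O3f_cert : ∀ t ∈ O3f, cert (Ap false 3) L3J [0, 1] t [0, 1] = true := by decide +kernel
theorem O3t_cert : ∀ t ∈ O3t, cert (Ap true 3) L3J [0, 1] t [0, 1] = true := by decide +kernel
theorem O4f_cert : ∀ t ∈ O4f, cert (Ap false 4) L4J [0, 1, 2] t [0, 1, 2] = true := by decide +kernel
theorem O4t_cert : ∀ t ∈ O4t, cert (Ap true 4) L4J [0, 1, 2] t [0, 1, 2] = true := by decide +kernel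

theorem O3f_orb : ∀ t ∈ O3f, ∀ j, ∃ t' ∈ O3f, ∀ i, act (Ap false 3) j t.1 i = t'.1 i := by decide +kernel
theorem O3t_orb : ∀ t ∈ O3t, ∀ j, ∃ t' ∈ O3t, ∀ i, act (Ap true 3) j t.1 i = t'.1 i := by decide +kernel
theorem O4f_orb : ∀ t ∈ O4f, ∀ j, ∃ t' ∈ O4f, ∀ i, act (Ap false 4) j t.1 i = t'.1 i := by decide +kernel
theorem O4t_orb : ∀ t ∈ O4t, ∀ j, ∃ t' ∈ O4t, ∀ i, act (Ap true 4) j t.1 i = t'.1 i := by decide +kernel

theorem O3f_0 : ∃ t ∈ O3f, ∀ i, t.1 i = dl 1 i := by decide +kernel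
theorem O3t_0 : ∃ t ∈ O3t, ∀ i, t.1 i = dl 1 i := by decide +kernel
theorem O4f_0 : ∃ t ∈ O4f, ∀ i, t.1 i = dl 2 i := by decide +kernel
theorem O4t_0 : ∃ t ∈ O4t, ∀ i, t.1 i = dl 2 i := by decide +kernel

/-! ### the theorems -/

section Rho

universe u v

variable {W : Type*} {Y : Type u} [Group W] [Group Y] {p : ℕ}
  {T : Subgroup Y} {V : Type v} [AddCommGroup V] [Module ℂ V]
  {ρ : Representation ℂ Y V} {X0 : Type*} [Group X0]

/-- **`V^B ≠ 0`, rank three** -/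
theorem VB_ne_three (o : Bool) {cs : CoxeterSystem (CoxeterMatrix.B 3) W} {n : Fin 3 → Y}
    {X : (Fin 3 → ℤ) → Subgroup Y} {hh : Fin 3 → X0 →* Y}
    (R : RGD cs (isCartan 3) p T n X) [Finite Y] [FiniteDimensional ℂ V]
    (hG : GG cs (isCartan 3) T X = ⊤) (hT : ∀ s ∈ T, ∀ t ∈ T, s * t = t * s) (hρ : ρ.IsIrreducible) {t t' : Y}
    (ht : Ell cs (isCartan 3) T X {2}ᶜ t) (hχ : ρ.character t ≠ 0) (hd : HD cs (isCartan 3) T n X hh {2}ᶜ t)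
    (ht' : Ell cs (isCartan 3) T X {1}ᶜ t') (hχ' : ρ.character t' ≠ 0)
    (hd' : HD cs (isCartan 3) T n X hh {1}ᶜ t') (td : TD T n (Ap o 3) hh) :
    fx ρ (RGD.B cs (isCartan 3) T X) ≠ ⊥ := by
  classical
  have : Finite W := finite_W cs
  have e1 : ({2}ᶜ : Set (Fin 3)) = {j | j ∈ ([0, 1] : List (Fin 3))} := by ext j; fin_cases j <;> simp
  have e2 : ({1}ᶜ : Set (Fin 3)) = {j | j ∈ ([0, 2] : List (Fin 3))} := by ext j; fin_cases j <;> simp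
  cases o
  · exact VB_ne_of R hG hT hρ (VU_ne_three R hG hρ ht hχ ht' hχ') closed_3J (by decide) e1 ht hχ hd closed_3K
      (by decide) e2 ht' hχ' hd' td (k0 := 1) (fun v hv => K_three false v hv) O3f O3f_0 O3f_orb [0, 1] O3f_cert
  · exact VB_ne_of R hG hT hρ (VU_ne_three R hG hρ ht hχ ht' hχ') closed_3J (by decide) e1 ht hχ hd closed_3K
      (by decide) e2 ht' hχ' hd' td (k0 := 1) (fun v hv => K_three true v hv) O3t O3t_0 O3t_orb [0, 1] O3t_cert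

/-- **`V^B ≠ 0`, rank four** -/
theorem VB_ne_four (o : Bool) {cs : CoxeterSystem (CoxeterMatrix.B 4) W} {n : Fin 4 → Y}
    {X : (Fin 4 → ℤ) → Subgroup Y} {hh : Fin 4 → X0 →* Y}
    (R : RGD cs (isCartan 4) p T n X) [Finite Y] [FiniteDimensional ℂ V]
    (hG : GG cs (isCartan 4) T X = ⊤) (hT : ∀ s ∈ T, ∀ t ∈ T, s * t = t * s) (hρ : ρ.IsIrreducible) {t t' : Y}
    (ht : Ell cs (isCartan 4) T X {3}ᶜ t) (hχ : ρ.character t ≠ 0) (hd : HD cs (isCartan 4) T n X hh {3}ᶜ t)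
    (ht' : Ell cs (isCartan 4) T X {2}ᶜ t') (hχ' : ρ.character t' ≠ 0)
    (hd' : HD cs (isCartan 4) T n X hh {2}ᶜ t') (td : TD T n (Ap o 4) hh) :
    fx ρ (RGD.B cs (isCartan 4) T X) ≠ ⊥ := by
  classical
  have : Finite W := finite_W cs
  have e1 : ({3}ᶜ : Set (Fin 4)) = {j | j ∈ ([0, 1, 2] : List (Fin 4))} := by ext j; fin_cases j <;> simp
  have e2 : ({2}ᶜ : Set (Fin 4)) = {j | j ∈ ([0, 1, 3] : List (Fin 4))} := by ext j; fin_cases j <;> simp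
  cases o
  · exact VB_ne_of R hG hT hρ (VU_ne_four R hG hρ ht hχ ht' hχ') closed_4J (by decide) e1 ht hχ hd closed_4K
      (by decide) e2 ht' hχ' hd' td (k0 := 2) (fun v hv => K_four false v hv) O4f O4f_0 O4f_orb [0, 1, 2] O4f_cert
  · exact VB_ne_of R hG hT hρ (VU_ne_four R hG hρ ht hχ ht' hχ') closed_4J (by decide) e1 ht hχ hd closed_4K
      (by decide) e2 ht' hχ' hd' td (k0 := 2) (fun v hv => K_four true v hv) O4t O4t_0 O4t_orb [0, 1, 2] O4t_cert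

end Rho

end Cfsg.Agent.H200.VZ
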